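import Cfsg.Agent.H194.FR.Nfour

/-!
# S4970, FR-N4 for `ε = 1`: all indicators of the group `YY` are one (helper194)
-/

set_option autoImplicit false

universe u

namespace Cfsg.Agent.H194.FR

open Module Cfsg.Agent.H721.FR Cfsg.Agent.H955.FS

variable {F V : Type u} [Field F] [AddCommGroup V] [Module F V]

/-- the four-group of two commuting involutions -/
def four {Γ : Type*} [Group Γ] (t w : Γ) (htt : t * t = 1) (hww : w * w = 1) (htw : t * w = w * t) : Subgroup Γ where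
  carrier := {x | x = 1 ∨ x = t ∨ x = w ∨ x = t * w}
  one_mem' := Or.inl rfl
  mul_mem' := by
    have e1 : w * t = t * w := htw.symm
    have e2 : t * (t * w) = w := by rw [← mul_assoc, htt, one_mul]
    have e3 : t * w * t = w := by rw [mul_assoc, e1, e2]
    have e4 : w * (t * w) = t := by rw [← mul_assoc, e1, mul_assoc, hww, mul_one]
    have e5 : t * w * w = t := by rw [mul_assoc, hww, mul_one]
    have e6 : t * w * (t * w) = 1 := by rw [← mul_assoc, e3, hww]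
    rintro x y (rfl | rfl | rfl | rfl) (rfl | rfl | rfl | rfl) <;>
      simp only [one_mul, mul_one, htt, hww, e1, e2, e3, e4, e5, e6, Set.mem_ofPred_eq, true_or, or_true]
  inv_mem' := by
    have i1 : t⁻¹ = t := inv_eq_of_mul_eq_one_left htt
    have i2 : w⁻¹ = w := inv_eq_of_mul_eq_one_left hww
    rintro x (rfl | rfl | rfl | rfl) <;> simp only [inv_one, mul_inv_rev, i1, i2, ← htw, Set.mem_ofPred_eq, true_or, or_true]

theorem Kd.decomp {B : V →ₗ[F] V →ₗ[F] F} {ε : F} {δ s : Module.End F V} {d ν f0 f1 : F}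
    {Φ : (F × F × F × F) ≃ₗ[F] V} (h : Kd B ε δ s d ν f0 f1 Φ) {g : V ≃ₗ[F] V} (hg : g ∈ YY B δ s) :
    g ∈ AA B δ s ∨ tr Φ (mt ε h.ee) * g ∈ AA B δ s ∨ tr Φ mw * g ∈ AA B δ s ∨
      tr Φ (mt ε h.ee) * (tr Φ mw * g) ∈ AA B δ s := by
  have hwY : tr Φ mw ∈ YY B δ s := ⟨h.w_isom, Or.inr h.w_s, h.w_δ⟩
  have step1 : ∀ g ∈ YY B δ s, (∀ x, g (s x) = s (g x)) → g ∈ AA B δ s ∨ tr Φ (mt ε h.ee) * g ∈ AA B δ s := by
    rintro g ⟨g1, -, g3⟩ gs
    rcases g3 with g3 | g3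
    · exact Or.inl ⟨g1, gs, g3⟩
    · right
      refine ⟨mul_mem h.t_isom g1, fun x => ?_, fun x => ?_⟩
      · show tr Φ (mt ε h.ee) (g (s x)) = s (tr Φ (mt ε h.ee) (g x))
        rw [gs, h.t_s]
      · show tr Φ (mt ε h.ee) (g (δ x)) = δ (tr Φ (mt ε h.ee) (g x))
        rw [g3, map_neg, h.t_δ, neg_neg]
  rcases hg.2.1 with gs | gs
  · rcases step1 g hg gs with h1 | h1
    · exact Or.inl h1
    · exact Or.inr (Or.inl h1)
  · rcases step1 (tr Φ mw * g) (mul_mem hwY hg) (fun x => by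
        show tr Φ mw (g (s x)) = s (tr Φ mw (g x))
        rw [gs, map_neg, h.w_s, neg_neg]) with h1 | h1
    · exact Or.inr (Or.inr (Or.inl h1))
    · exact Or.inr (Or.inr (Or.inr h1))

theorem AA_normal {B : V →ₗ[F] V →ₗ[F] F} {δ s : Module.End F V} :
    ∀ y ∈ YY B δ s, ∀ a ∈ AA B δ s, y * a * y⁻¹ ∈ AA B δ s := by
  rintro y ⟨y1, y2, y3⟩ a ⟨a1, a2, a3⟩
  have e : ∀ x, (y * a * y⁻¹) x = y (a (y⁻¹ x)) := fun x => rfl
  have e'' : ∀ x, y (y⁻¹ x) = x := fun x => y.apply_symm_apply x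
  have gen : ∀ r : Module.End F V, ((∀ x, y (r x) = r (y x)) ∨ ∀ x, y (r x) = - r (y x)) →
      (∀ x, a (r x) = r (a x)) → ∀ x, (y * a * y⁻¹) (r x) = r ((y * a * y⁻¹) x) := by
    intro r hr ha x
    rw [e, e]
    rcases hr with hr | hr
    · have : y⁻¹ (r x) = r (y⁻¹ x) := by
        apply y.injective
        rw [e'', hr, e'']
      rw [this, ha, hr]
    · have : y⁻¹ (r x) = - r (y⁻¹ x) := by
        apply y.injective
        rw [e'', map_neg, hr, e'', neg_neg]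
      rw [this, map_neg, map_neg, ha, hr, neg_neg]
  exact ⟨mul_mem (mul_mem y1 a1) (inv_mem y1), gen s y2 a2, gen δ y3 a3⟩

theorem Kd.good {B : V →ₗ[F] V →ₗ[F] F} {δ s : Module.End F V} {d ν f0 f1 : F}
    {Φ : (F × F × F × F) ≃ₗ[F] V} [Finite V] (h : Kd B 1 δ s d ν f0 f1 Φ) : FSGood False (YY B δ s) := by
  have hfin : Finite (V ≃ₗ[F] V) := Finite.of_injective (fun f : V ≃ₗ[F] V => (f : V → V)) DFunLike.coe_injective
  have hww : tr Φ mw * tr Φ mw = 1 := h.w_w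
  have htw : tr Φ (mt 1 h.ee) * tr Φ mw = tr Φ mw * tr Φ (mt 1 h.ee) := h.t_w
  have htt : tr Φ (mt 1 h.ee) * tr Φ (mt 1 h.ee) = 1 := by
    ext x
    show tr Φ (mt 1 h.ee) (tr Φ (mt 1 h.ee) x) = x
    rw [h.t_t, one_smul]
  have htY : tr Φ (mt 1 h.ee) ∈ YY B δ s := ⟨h.t_isom, Or.inl h.t_s, Or.inr h.t_δ⟩
  have hwY : tr Φ mw ∈ YY B δ s := ⟨h.w_isom, Or.inr h.w_s, h.w_δ⟩
  have hinv : ∀ a ∈ AA B δ s, tr Φ (mt 1 h.ee) * a * (tr Φ (mt 1 h.ee))⁻¹ = a⁻¹ := fun a ha => h.t_inv ha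
  have it : (tr Φ (mt 1 h.ee))⁻¹ = tr Φ (mt 1 h.ee) := inv_eq_of_mul_eq_one_left htt
  have iw : (tr Φ (mw : (F × F × F × F) ≃ₗ[F] (F × F × F × F)))⁻¹ = tr Φ mw := inv_eq_of_mul_eq_one_left hww
  set t := tr Φ (mt 1 h.ee)
  set w := tr Φ (mw : (F × F × F × F) ≃ₗ[F] (F × F × F × F))
  have hee : t * w * (t * w) = 1 := by
    calc t * w * (t * w) = t * w * (w * t) := by rw [htw]
      _ = t * (w * w) * t := by group
      _ = 1 := by rw [hww, mul_one, htt]
  refine Cfsg.Agent.H619.FR.fsGood_cls_amb (A := AA B δ s) (E := four t w htt hww htw) (t := t) (AA_le B δ s) ?_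
    AA_normal ?_ ?_ ?_ (Or.inr (Or.inl rfl)) hinv
  · rintro x (rfl | rfl | rfl | rfl)
    · exact one_mem _
    · exact htY
    · exact hwY
    · exact mul_mem htY hwY
  · intro a ha b hb
    have h1 := hinv (a * b) (mul_mem ha hb)
    have h2 : t * (a * b) * t⁻¹ = (t * a * t⁻¹) * (t * b * t⁻¹) := by group
    rw [h2, hinv a ha, hinv b hb, mul_inv_rev] at h1
    have h3 := congrArg (fun g => g⁻¹) h1
    simp only [mul_inv_rev, inv_inv] at h3
    exact h3.symm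
  · rintro x (rfl | rfl | rfl | rfl)
    · exact one_mul 1
    · exact htt
    · exact hww
    · exact hee
  · intro y hy
    have key : ∀ e ∈ four t w htt hww htw, e ∈ YY B δ s → e * y ∈ AA B δ s → e * e = 1 →
        ∃ a ∈ AA B δ s, ∃ e ∈ four t w htt hww htw, y = a * e := by
      intro e he heY hey hee
      have ie : e⁻¹ = e := inv_eq_of_mul_eq_one_left hee
      refine ⟨e * (e * y) * e⁻¹, AA_normal e heY _ hey, e, he, ?_⟩
      rw [inv_mul_cancel_right, ← mul_assoc, hee, one_mul]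
    rcases h.decomp hy with h1 | h1 | h1 | h1
    · exact ⟨y, h1, 1, one_mem _, (mul_one _).symm⟩
    · exact key t (Or.inr (Or.inl rfl)) htY h1 htt
    · exact key w (Or.inr (Or.inr (Or.inl rfl))) hwY h1 hww
    · refine key (t * w) (Or.inr (Or.inr (Or.inr rfl))) (mul_mem htY hwY) (by rwa [mul_assoc]) ?_
      exact hee

/-- **FR-N4**, `ε = 1`, with all indicators one and `Y` normalising `⟨c⟩` -/
theorem n4_good [Finite F] [FiniteDimensional F V] {B : V →ₗ[F] V →ₗ[F] F} (hF : Fm B (1 : F))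
    (hn : finrank F V = 4) {c : V ≃ₗ[F] V} (hc : c ∈ Isom B) {τ : F} (hτ : ∀ x, c x + c.symm x = τ • x)
    (hns : ¬ IsSquare (4 - τ * τ)) {P : Subgroup (V ≃ₗ[F] V)} (hPI : P ≤ Isom B) (hP2 : IsPGroup 2 P)
    (act : ∀ g ∈ P, g * c * g⁻¹ = c ∨ g * c * g⁻¹ = c⁻¹) :
    ∃ Y : Subgroup (V ≃ₗ[F] V), Y ≤ Isom B ∧ c ∈ Y ∧ P ≤ Y ∧
      (∀ y ∈ Y, y * c * y⁻¹ = c ∨ y * c * y⁻¹ = c⁻¹) ∧ FSGood False Y := by
  have : Finite V := Module.finite_of_finite F
  let δ : Module.End F V := (c : V →ₗ[F] V) - (c.symm : V →ₗ[F] V)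
  have hδ : ∀ x, δ x = c x - c.symm x := fun x => rfl
  have hcs : ∀ x, c (c.symm x) = x := fun x => c.apply_symm_apply x
  have hsc : ∀ x, c.symm (c x) = x := fun x => c.symm_apply_apply x
  have dd : ∀ x, δ (δ x) = (τ * τ - 4) • x := by
    intro x
    have e1 : τ • (τ • x) = c (c x) + c.symm (c.symm x) + (2 : F) • x := by
      rw [← hτ x, smul_add, ← hτ (c x), ← hτ (c.symm x), hcs, hsc, two_smul]
      abel
    have e2 : (τ * τ - 4) • x = τ • (τ • x) - (4 : F) • x := by module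
    rw [e2, e1, hδ, hδ, map_sub, map_sub, hcs, hsc]
    module
  have skew : ∀ x y, B (δ x) y = - B x (δ y) := by
    intro x y
    have e1 : B (c x) y = B x (c.symm y) := by
      have := hc x (c.symm y)
      rwa [hcs] at this
    have e2 : B (c.symm x) y = B x (c y) := by
      have := hc (c.symm x) y
      rw [hcs] at this
      exact this.symm
    rw [hδ, hδ, map_sub, map_sub, LinearMap.sub_apply, e1, e2, neg_sub]
  have hdd : -(τ * τ - 4) = 4 - τ * τ := by ring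
  have hact : ∀ g ∈ P, (∀ x, g (δ x) = δ (g x)) ∨ ∀ x, g (δ x) = - δ (g x) := by
    intro g hg
    rcases act g hg with h1 | h1
    · left
      have h2 : g * c = c * g := mul_inv_eq_iff_eq_mul.1 h1
      have h3 : ∀ x, g (c x) = c (g x) := fun x => congrArg (fun f : V ≃ₗ[F] V => f x) h2
      intro x
      have h4 : g (c.symm x) = c.symm (g x) := by
        apply c.injective
        rw [← h3, hcs, hcs]
      rw [hδ, hδ, map_sub, h3, h4]
    · right
      have h2 : g * c = c⁻¹ * g := mul_inv_eq_iff_eq_mul.1 h1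
      have h3 : ∀ x, g (c x) = c.symm (g x) := fun x => congrArg (fun f : V ≃ₗ[F] V => f x) h2
      intro x
      have h4 : g (c.symm x) = c (g x) := by
        apply c.symm.injective
        rw [← h3, hcs, hsc]
      rw [hδ, hδ, map_sub, h3, h4, neg_sub]
  have hd : ¬ IsSquare (-(τ * τ - 4)) := by rwa [hdd]
  have hd0 : τ * τ - 4 ≠ 0 := by
    intro h0
    apply hd
    rw [h0, neg_zero]
    exact IsSquare.zero
  have hq : Qd B δ (τ * τ - 4) :=
    ⟨hF.two, hF.nondeg, fun x y => by rw [hF.symm, one_mul], dd, skew, hd0⟩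
  obtain ⟨s, hs, hsP⟩ := hq.exists_fix hn hd hd P hP2 fun g hg =>
    ⟨⟨1, one_ne_zero, fun x y => by rw [hPI hg x y, one_mul]⟩, hact g hg⟩
  have hD : Dt B 1 δ s (τ * τ - 4) (-(τ * τ - 4)) :=
    ⟨hF.two, hF.nondeg, one_mul 1, hF.symm, dd, skew, hd0, hs, hd⟩
  obtain ⟨f0, f1, Φ, hK⟩ := hD.exists_kd hn
  -- `2 c = τ + δ`
  have h5 : ∀ x, c x = (2 : F)⁻¹ • (τ • x + δ x) := by
    intro x
    rw [hδ, ← hτ, eq_inv_smul_iff₀ hF.two]
    module
  have h6 : ∀ x, c.symm x = (2 : F)⁻¹ • (τ • x - δ x) := by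
    intro x
    rw [hδ, ← hτ, eq_inv_smul_iff₀ hF.two]
    module
  refine ⟨YY B δ s, fun g hg => hg.1, ⟨hc, Or.inl ?_, Or.inl ?_⟩, fun g hg => ⟨hPI hg, hsP g hg, hact g hg⟩, ?_,
    hK.good⟩
  · intro x
    rw [h5, h5, map_smul, map_add, map_smul, hs.1]
  · intro x
    rw [hδ, hδ, map_sub, hcs, hsc]
  · rintro y ⟨-, -, h3⟩
    rcases h3 with h3 | h3
    · left
      rw [mul_inv_eq_iff_eq_mul]
      ext x
      show y (c x) = c (y x)
      rw [h5, h5, map_smul, map_add, map_smul, h3]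
    · right
      rw [mul_inv_eq_iff_eq_mul]
      ext x
      show y (c x) = c.symm (y x)
      rw [h5, h6, map_smul, map_add, map_smul, h3, sub_eq_add_neg]

end Cfsg.Agent.H194.FR
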