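import Cfsg.Agent.H721.FR.Base

/-!
# S4970, FR-N4, part 1: a 2-group fixes a pair `{s, -s}` (helper194)

`V` of dimension four with a nondegenerate symmetric form `B`, `δ` skew with `δ² = d`, `-d` not a square, `ν` not a
square: the number of the pairs `{s, -s}`, `s` self-adjoint, commuting with `δ`, `s² = ν`, is odd.
-/

set_option autoImplicit false

universe u

namespace Cfsg.Agent.H194.FR

open Module

/-! ### Parity -/

/-- the fixed points of an involution -/
theorem parity_one {α : Type*} [Finite α] (f : α → α) (hf : ∀ x, f (f x) = x) :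
    Nat.card α % 2 = Nat.card {x // f x = x} % 2 := by
  classical
  have := Fintype.ofFinite α
  have h : Fintype.card α ≡ Fintype.card (Function.fixedPoints f) [MOD 2] := by
    have h1 : (show Function.End α from f) ^ 2 ^ 1 = 1 := by
      rw [pow_one, pow_two]
      exact funext hf
    exact Equiv.Perm.card_fixedPoints_modEq (p := 2) (n := 1) h1
  rw [Nat.card_eq_fintype_card, Nat.card_eq_fintype_card]
  exact h

/-- the common fixed points of two commuting involutions -/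
theorem parity_two {α : Type*} [Finite α] (f g : α → α) (hf : ∀ x, f (f x) = x) (hg : ∀ x, g (g x) = x)
    (hfg : ∀ x, f (g x) = g (f x)) : Nat.card α % 2 = Nat.card {x // f x = x ∧ g x = x} % 2 := by
  rw [parity_one f hf]
  have h := parity_one (α := {x // f x = x}) (fun x => ⟨g x.1, by rw [hfg, x.2]⟩) (fun x => Subtype.ext (hg x.1))
  rw [h]
  congr 1
  refine Nat.card_congr
    { toFun := fun x => ⟨x.1.1, x.1.2, congrArg Subtype.val x.2⟩
      invFun := fun x => ⟨⟨x.1, x.2.1⟩, Subtype.ext x.2.2⟩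
      left_inv := fun x => rfl
      right_inv := fun x => rfl }

variable {F V : Type u} [Field F] [AddCommGroup V] [Module F V]

/-! ### The form -/

/-- nondegenerate symmetric form with a skew operator `δ`, `δ² = d` -/
structure Qd (B : V →ₗ[F] V →ₗ[F] F) (δ : Module.End F V) (d : F) : Prop where
  two : (2 : F) ≠ 0
  nd : ∀ x, (∀ y, B x y = 0) → x = 0
  sym : ∀ x y, B x y = B y x
  dd : ∀ x, δ (δ x) = d • x
  skew : ∀ x y, B (δ x) y = - B x (δ y)
  d0 : d ≠ 0

section form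

variable {B : V →ₗ[F] V →ₗ[F] F} {δ : Module.End F V} {d : F}

theorem eq_zero_of_neg (h2 : (2 : F) ≠ 0) {a : F} (h : a = -a) : a = 0 := by
  have : 2 * a = 0 := by linear_combination h
  exact (mul_eq_zero.1 this).resolve_left h2

theorem Qd.self (h : Qd B δ d) (x : V) : B x (δ x) = 0 := by
  apply eq_zero_of_neg h.two
  rw [← h.skew, h.sym]

theorem Qd.dl (h : Qd B δ d) (x : V) : B (δ x) x = 0 := by rw [h.sym, h.self]

theorem Qd.dB (h : Qd B δ d) (x y : V) : B (δ x) (δ y) = - d * B x y := by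
  rw [h.skew, h.dd, map_smul, smul_eq_mul]
  ring

/-- a vector of non-zero norm orthogonal to a given list -/
theorem Qd.exists_ne (h : Qd B δ d) [Nontrivial V] : ∃ x, B x x ≠ 0 := by
  by_contra hcon
  push Not at hcon
  obtain ⟨x, hx⟩ := _root_.exists_ne (0 : V)
  apply hx
  apply h.nd
  intro y
  have h1 := hcon (x + y)
  simp only [map_add, LinearMap.add_apply, hcon x, hcon y, h.sym y x] at h1
  have : 2 * B x y = 0 := by linear_combination h1
  exact (mul_eq_zero.1 this).resolve_left h.two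

/-- the second vector -/
theorem Qd.exists_two (h : Qd B δ d) [FiniteDimensional F V] (hn : finrank F V = 4) {e : V} (he : B e e ≠ 0) :
    ∃ f, B e f = 0 ∧ B (δ e) f = 0 ∧ B f f ≠ 0 := by
  by_contra hcon
  push Not at hcon
  -- the projection
  let π : V → V := fun v => v - (B e v / B e e) • e + (B (δ e) v / (d * B e e)) • δ e
  have hπ1 : ∀ v, B e (π v) = 0 := by
    intro v
    simp only [π, map_add, map_sub, map_smul, smul_eq_mul, h.self]
    field_simp
    ring
  have hd := h.d0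
  have hπ2 : ∀ v, B (δ e) (π v) = 0 := by
    intro v
    simp only [π, map_add, map_sub, map_smul, smul_eq_mul, h.dl, h.dB]
    field_simp
    ring
  have h0 : ∀ v, π v = 0 := by
    intro v
    apply h.nd
    intro y
    have h1 : ∀ x y, B (π x) (π y) = 0 := by
      intro x y
      have a1 := hcon (π x) (hπ1 x) (hπ2 x)
      have a2 := hcon (π y) (hπ1 y) (hπ2 y)
      have a3 := hcon (π x + π y) (by rw [map_add, hπ1, hπ1, add_zero]) (by rw [map_add, hπ2, hπ2, add_zero])
      simp only [map_add, LinearMap.add_apply, a1, a2, h.sym (π y) (π x)] at a3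
      have : 2 * B (π x) (π y) = 0 := by linear_combination a3
      exact (mul_eq_zero.1 this).resolve_left h.two
    have h2 : y = π y + (B e y / B e e) • e - (B (δ e) y / (d * B e e)) • δ e := by
      simp only [π]
      abel
    rw [h2, map_sub, map_add, map_smul, map_smul, h1, h.sym (π v) e, h.sym (π v) (δ e), hπ1, hπ2]
    simp
  have hspan : (⊤ : Submodule F V) ≤ Submodule.span F ({e, δ e} : Set V) := by
    intro v _
    have h2 : v = (B e v / B e e) • e - (B (δ e) v / (d * B e e)) • δ e := by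
      have := h0 v
      simp only [π] at this
      rw [← sub_eq_zero]
      rw [← this]
      abel
    rw [h2]
    exact Submodule.sub_mem _ (Submodule.smul_mem _ _ (Submodule.subset_span (by simp)))
      (Submodule.smul_mem _ _ (Submodule.subset_span (by simp)))
  have h3 : finrank F V ≤ 2 := by
    classical
    have h4 := finrank_span_finset_le_card (R := F) (M := V) ({e, δ e} : Finset V)
    have h5 : Submodule.span F (({e, δ e} : Finset V) : Set V) = ⊤ := by
      rw [Finset.coe_pair]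
      exact top_le_iff.1 hspan
    rw [Set.finrank, h5, finrank_top] at h4
    exact h4.trans Finset.card_le_two
  omega

end form

/-! ### Coordinates -/

/-- coordinates with respect to four vectors -/
def cmb (e f g k : V) : (F × F × F × F) →ₗ[F] V where
  toFun x := x.1 • e + x.2.1 • f + x.2.2.1 • g + x.2.2.2 • k
  map_add' x y := by
    simp only [Prod.fst_add, Prod.snd_add, add_smul]
    abel
  map_smul' c x := by
    simp only [Prod.smul_fst, Prod.smul_snd, smul_eq_mul, mul_smul, smul_add, RingHom.id_apply]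

theorem cmb_apply (e f g k : V) (x : F × F × F × F) :
    cmb e f g k x = x.1 • e + x.2.1 • f + x.2.2.1 • g + x.2.2.2 • k := rfl

theorem finrank_four : finrank F (F × F × F × F) = 4 := by
  rw [finrank_prod, finrank_prod, finrank_prod, finrank_self]

/-- the coordinates form an isomorphism as soon as they are injective -/
theorem exists_equiv [FiniteDimensional F V] (hn : finrank F V = 4) (e f g k : V)
    (h : ∀ x : F × F × F × F, cmb e f g k x = 0 → x = 0) :
    ∃ Φ : (F × F × F × F) ≃ₗ[F] V, ∀ x, Φ x = x.1 • e + x.2.1 • f + x.2.2.1 • g + x.2.2.2 • k := by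
  refine ⟨LinearEquiv.ofInjective (cmb (F := F) e f g k) ?_ |>.trans (LinearEquiv.ofTop _ ?_), fun x => rfl⟩
  · rw [← LinearMap.ker_eq_bot, LinearMap.ker_eq_bot']
    exact h
  · have hi : Function.Injective (cmb (F := F) e f g k) := by
      rw [← LinearMap.ker_eq_bot, LinearMap.ker_eq_bot']
      exact h
    apply Submodule.eq_top_of_finrank_eq
    rw [LinearMap.finrank_range_of_inj hi, finrank_four, hn]

section coord

variable {B : V →ₗ[F] V →ₗ[F] F} {δ : Module.End F V} {d : F}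

/-- the coordinates adapted to `B`, `δ` -/
structure Crd (B : V →ₗ[F] V →ₗ[F] F) (δ : Module.End F V) (d m n : F) (Φ : (F × F × F × F) ≃ₗ[F] V) : Prop where
  m0 : m ≠ 0
  n0 : n ≠ 0
  B : ∀ x y, B (Φ x) (Φ y) = m * x.1 * y.1 - d * m * x.2.1 * y.2.1 + n * x.2.2.1 * y.2.2.1 - d * n * x.2.2.2 * y.2.2.2
  δ : ∀ x, δ (Φ x) = Φ (d * x.2.1, x.1, d * x.2.2.2, x.2.2.1)

theorem Qd.exists_crd (h : Qd B δ d) [FiniteDimensional F V] (hn : finrank F V = 4) :
    ∃ (m n : F) (Φ : (F × F × F × F) ≃ₗ[F] V), Crd B δ d m n Φ := by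
  have : Nontrivial V := Module.nontrivial_of_finrank_pos (R := F) (by omega)
  obtain ⟨e, he⟩ := h.exists_ne
  obtain ⟨f, hf1, hf2, hf⟩ := h.exists_two hn he
  have hf3 : B e (δ f) = 0 := by
    have := h.skew e f
    rw [hf2] at this
    exact neg_eq_zero.1 this.symm
  have hf4 : B (δ e) (δ f) = 0 := by rw [h.dB, hf1, mul_zero]
  have key : ∀ x y : F × F × F × F, B (cmb e (δ e) f (δ f) x) (cmb e (δ e) f (δ f) y) =
      B e e * x.1 * y.1 - d * B e e * x.2.1 * y.2.1 + B f f * x.2.2.1 * y.2.2.1 - d * B f f * x.2.2.2 * y.2.2.2 := by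
    intro x y
    simp only [cmb_apply, map_add, map_smul, LinearMap.add_apply, LinearMap.smul_apply, smul_eq_mul, h.self, h.dl, h.dB,
      hf1, hf2, hf3, h.sym f e, h.sym (δ f) e, h.sym f (δ e)]
    ring
  obtain ⟨Φ, hΦ⟩ := exists_equiv hn e (δ e) f (δ f) (by
    intro x hx
    have hd := h.d0
    have h1 := key x (1, 0, 0, 0)
    have h2 := key x (0, 1, 0, 0)
    have h3 := key x (0, 0, 1, 0)
    have h4 := key x (0, 0, 0, 1)
    simp only [hx, map_zero, LinearMap.zero_apply, mul_one, mul_zero, sub_zero, add_zero, zero_sub, zero_add] at h1 h2 h3 h4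
    have a1 : x.1 = 0 := (mul_eq_zero.1 h1.symm).resolve_left he
    have a2 : x.2.1 = 0 := (mul_eq_zero.1 (neg_eq_zero.1 h2.symm)).resolve_left (mul_ne_zero hd he)
    have a3 : x.2.2.1 = 0 := (mul_eq_zero.1 h3.symm).resolve_left hf
    have a4 : x.2.2.2 = 0 := (mul_eq_zero.1 (neg_eq_zero.1 h4.symm)).resolve_left (mul_ne_zero hd hf)
    exact Prod.ext a1 (Prod.ext a2 (Prod.ext a3 a4)))
  have hΦ' : ∀ x, Φ x = cmb e (δ e) f (δ f) x := hΦ
  refine ⟨B e e, B f f, Φ, he, hf, fun x y => by rw [hΦ', hΦ', key], fun x => ?_⟩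
  rw [hΦ, hΦ]
  simp only [map_add, map_smul, h.dd, smul_smul]
  rw [mul_comm d x.2.1, mul_comm d x.2.2.2]
  abel

/-! ### Operators -/

/-- self-adjoint operators commuting with `δ`, of square `ν` -/
def Sx (B : V →ₗ[F] V →ₗ[F] F) (δ : Module.End F V) (ν : F) : Set (Module.End F V) :=
  {s | (∀ x, s (δ x) = δ (s x)) ∧ (∀ x y, B (s x) y = B x (s y)) ∧ ∀ x, s (s x) = ν • x}

theorem mem_Sx {ν : F} {s : Module.End F V} : s ∈ Sx B δ ν ↔
    (∀ x, s (δ x) = δ (s x)) ∧ (∀ x y, B (s x) y = B x (s y)) ∧ ∀ x, s (s x) = ν • x := Iff.rfl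

theorem Sx.neg {ν : F} {s : Module.End F V} (h : s ∈ Sx B δ ν) : -s ∈ Sx B δ ν := by
  obtain ⟨h1, h2, h3⟩ := h
  refine ⟨fun x => ?_, fun x y => ?_, fun x => ?_⟩
  · rw [LinearMap.neg_apply, LinearMap.neg_apply, h1, map_neg]
  · rw [LinearMap.neg_apply, LinearMap.neg_apply, map_neg, LinearMap.neg_apply, h2, map_neg]
  · rw [LinearMap.neg_apply, LinearMap.neg_apply, map_neg, neg_neg, h3]

/-- a linear map of `F⁴` from a formula -/
def o0 : (F × F × F × F) →ₗ[F] (F × F × F × F) where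
  toFun x := (x.1, x.2.1, -x.2.2.1, -x.2.2.2)
  map_add' x y := by ext <;> simp [add_comm]
  map_smul' c x := by ext <;> simp

/-- the second map -/
def o1 (μ : F) : (F × F × F × F) →ₗ[F] (F × F × F × F) where
  toFun x := (μ * x.2.2.1, μ * x.2.2.2, x.1, x.2.1)
  map_add' x y := by ext <;> simp [mul_add]
  map_smul' c x := by ext <;> simp [mul_left_comm]

/-- the third map -/
def o2 (d μ : F) : (F × F × F × F) →ₗ[F] (F × F × F × F) where
  toFun x := (-(μ * d) * x.2.2.2, -μ * x.2.2.1, d * x.2.1, x.1)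
  map_add' x y := by ext <;> simp <;> ring
  map_smul' c x := by ext <;> simp <;> ring

theorem o0_apply (x : F × F × F × F) : o0 x = (x.1, x.2.1, -x.2.2.1, -x.2.2.2) := rfl

theorem o1_apply (μ : F) (x : F × F × F × F) : o1 μ x = (μ * x.2.2.1, μ * x.2.2.2, x.1, x.2.1) := rfl

theorem o2_apply (d μ : F) (x : F × F × F × F) :
    o2 d μ x = (-(μ * d) * x.2.2.2, -μ * x.2.2.1, d * x.2.1, x.1) := rfl

/-- transport to `V` -/
def op (Φ : (F × F × F × F) ≃ₗ[F] V) (f : (F × F × F × F) →ₗ[F] (F × F × F × F)) : Module.End F V :=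
  (Φ : (F × F × F × F) →ₗ[F] V) ∘ₗ f ∘ₗ (Φ.symm : V →ₗ[F] (F × F × F × F))

theorem op_apply (Φ : (F × F × F × F) ≃ₗ[F] V) (f : (F × F × F × F) →ₗ[F] (F × F × F × F)) (x : F × F × F × F) :
    op Φ f (Φ x) = Φ (f x) := by
  simp [op]

theorem ext_of {s s' : Module.End F V} (Φ : (F × F × F × F) ≃ₗ[F] V) (h : ∀ x, s (Φ x) = s' (Φ x)) : s = s' := by
  ext v
  obtain ⟨x, rfl⟩ := Φ.surjective v
  exact h x

variable {m n : F} {Φ : (F × F × F × F) ≃ₗ[F] V}

/-- an operator commuting with `δ` is given by the images of two vectors -/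
theorem Crd.ext (h : Crd B δ d m n Φ) {s s' : Module.End F V} (hs : ∀ x, s (δ x) = δ (s x))
    (hs' : ∀ x, s' (δ x) = δ (s' x)) (h1 : s (Φ (1, 0, 0, 0)) = s' (Φ (1, 0, 0, 0)))
    (h2 : s (Φ (0, 0, 1, 0)) = s' (Φ (0, 0, 1, 0))) : s = s' := by
  apply ext_of Φ
  intro x
  have e1 : Φ x = x.1 • Φ (1, 0, 0, 0) + x.2.1 • δ (Φ (1, 0, 0, 0)) + x.2.2.1 • Φ (0, 0, 1, 0) +
      x.2.2.2 • δ (Φ (0, 0, 1, 0)) := by
    rw [h.δ, h.δ, ← map_smul, ← map_smul, ← map_smul, ← map_smul, ← map_add, ← map_add, ← map_add]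
    congr 1
    ext <;> simp
  rw [e1]
  simp only [map_add, map_smul, hs, hs', h1, h2]

theorem Crd.sa_o0 (h : Crd B δ d m n Φ) : op Φ o0 ∈ Sx B δ 1 := by
  refine ⟨fun v => ?_, fun v w => ?_, fun v => ?_⟩
  · obtain ⟨x, rfl⟩ := Φ.surjective v
    rw [h.δ, op_apply, op_apply, h.δ, o0_apply, o0_apply]
    congr 1
    ext <;> simp
  · obtain ⟨x, rfl⟩ := Φ.surjective v
    obtain ⟨y, rfl⟩ := Φ.surjective w
    rw [op_apply, op_apply, h.B, h.B, o0_apply, o0_apply]
    ring
  · obtain ⟨x, rfl⟩ := Φ.surjective v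
    rw [op_apply, op_apply, o0_apply, o0_apply, one_smul]
    congr 1
    ext <;> simp

theorem Crd.sa_o1 (h : Crd B δ d m n Φ) : op Φ (o1 (n / m)) ∈ Sx B δ (n / m) := by
  have hm := h.m0
  refine ⟨fun v => ?_, fun v w => ?_, fun v => ?_⟩
  · obtain ⟨x, rfl⟩ := Φ.surjective v
    rw [h.δ, op_apply, op_apply, h.δ, o1_apply, o1_apply]
    congr 1
    ext <;> simp [mul_left_comm]
  · obtain ⟨x, rfl⟩ := Φ.surjective v
    obtain ⟨y, rfl⟩ := Φ.surjective w
    rw [op_apply, op_apply, h.B, h.B, o1_apply, o1_apply]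
    field_simp
    ring
  · obtain ⟨x, rfl⟩ := Φ.surjective v
    rw [op_apply, op_apply, o1_apply, o1_apply, ← map_smul]
    congr 1

theorem Crd.sa_o2 (h : Crd B δ d m n Φ) : op Φ (o2 d (n / m)) ∈ Sx B δ (-(d * (n / m))) := by
  have hm := h.m0
  refine ⟨fun v => ?_, fun v w => ?_, fun v => ?_⟩
  · obtain ⟨x, rfl⟩ := Φ.surjective v
    rw [h.δ, op_apply, op_apply, h.δ, o2_apply, o2_apply]
    congr 1
    ext <;> simp <;> ring
  · obtain ⟨x, rfl⟩ := Φ.surjective v
    obtain ⟨y, rfl⟩ := Φ.surjective w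
    rw [op_apply, op_apply, h.B, h.B, o2_apply, o2_apply]
    field_simp
    ring
  · obtain ⟨x, rfl⟩ := Φ.surjective v
    rw [op_apply, op_apply, o2_apply, o2_apply, ← map_smul]
    congr 1
    ext <;> simp only [Prod.smul_fst, Prod.smul_snd, smul_eq_mul] <;> ring

theorem Qd.self_s (hq : Qd B δ d) {ν : F} {s : Module.End F V} (hs : s ∈ Sx B δ ν) (x : V) :
    B (s x) (δ x) = 0 := by
  obtain ⟨h1, h2, -⟩ := hs
  apply eq_zero_of_neg hq.two
  calc B (s x) (δ x) = B x (δ (s x)) := by rw [h2, h1]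
    _ = - B (δ x) (s x) := by rw [hq.skew, neg_neg]
    _ = _ := by rw [hq.sym]

/-- a self-adjoint operator commuting with `δ` and with `op o0` has an eigenvector -/
theorem Crd.not_comm (h : Crd B δ d m n Φ) (hq : Qd B δ d) {ν : F} (hν : ¬ IsSquare ν) {s : Module.End F V}
    (hs : s ∈ Sx B δ ν) (hc : ∀ x, op Φ o0 (s x) = s (op Φ o0 x)) : False := by
  obtain ⟨h1, h2, h3⟩ := id hs
  obtain ⟨a, ha⟩ := Φ.surjective (s (Φ (1, 0, 0, 0)))
  have e1 := hc (Φ (1, 0, 0, 0))
  rw [← ha, op_apply, op_apply, o0_apply, o0_apply] at e1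
  have e2 : Φ ((1 : F), (0 : F), -(0 : F), -(0 : F)) = Φ (1, 0, 0, 0) := by rw [neg_zero]
  simp only [e2] at e1
  rw [← ha] at e1
  have e3 := Φ.injective e1
  have a3 : a.2.2.1 = 0 := by
    have := congrArg (fun z : F × F × F × F => z.2.2.1) e3
    exact eq_zero_of_neg hq.two this.symm
  have a4 : a.2.2.2 = 0 := by
    have := congrArg (fun z : F × F × F × F => z.2.2.2) e3
    exact eq_zero_of_neg hq.two this.symm
  -- the coefficient at `δ e`
  have hm := h.m0
  have hd := hq.d0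
  have e4 := hq.self_s hs (Φ (1, 0, 0, 0))
  have a2 : a.2.1 = 0 := by
    rw [← ha, h.δ, h.B] at e4
    simp only [mul_one, mul_zero, zero_sub, add_zero, sub_zero] at e4
    exact (mul_eq_zero.1 (neg_eq_zero.1 e4)).resolve_left (mul_ne_zero hd hm)
  apply hν
  have e5 := h3 (Φ (1, 0, 0, 0))
  have e6 : a = a.1 • ((1 : F), (0 : F), (0 : F), (0 : F)) := by
    ext <;> simp [a2, a3, a4]
  rw [← ha, e6, map_smul, map_smul, ← ha, e6, map_smul, smul_smul, ← map_smul, ← map_smul] at e5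
  have e7 := congrArg Prod.fst (Φ.injective e5)
  simp only [Prod.smul_fst, smul_eq_mul, mul_one] at e7
  exact ⟨a.1, e7.symm⟩

theorem smul_sq {ν κ b : F} {s t : Module.End F V} (hs : ∀ x, s (s x) = ν • x) (ht : ∀ x, t (t x) = κ • x)
    (h : s = b • t) {v : V} (hv : v ≠ 0) : b * b * κ = ν := by
  have h1 := hs v
  rw [h, LinearMap.smul_apply, LinearMap.smul_apply, map_smul, ht, smul_smul, smul_smul] at h1
  have h2 : (b * b * κ - ν) • v = 0 := by rw [sub_smul, h1, sub_self]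
  exact sub_eq_zero.1 ((smul_eq_zero.1 h2).resolve_right hv)

theorem Crd.e_ne (_ : Crd B δ d m n Φ) : Φ ((1 : F), (0 : F), (0 : F), (0 : F)) ≠ 0 := by
  intro h
  have h1 := congrArg Prod.fst (Φ.injective (h.trans (map_zero Φ).symm))
  exact one_ne_zero h1

theorem Crd.anti_comm (h : Crd B δ d m n Φ) (hq : Qd B δ d) {ν : F} {s : Module.End F V}
    (hs : s ∈ Sx B δ ν) (hc : ∀ x, op Φ o0 (s x) = - s (op Φ o0 x))
    (hc1 : ∀ x, op Φ (o1 (n / m)) (s x) = s (op Φ (o1 (n / m)) x)) :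
    ∃ b : F, s = b • op Φ (o1 (n / m)) ∧ b * b * (n / m) = ν := by
  obtain ⟨h1, h2, h3⟩ := id hs
  have hm := h.m0
  have hn := h.n0
  have hd := hq.d0
  obtain ⟨a, ha⟩ := Φ.surjective (s (Φ (1, 0, 0, 0)))
  have e1 := hc (Φ (1, 0, 0, 0))
  rw [← ha, op_apply, op_apply, o0_apply, o0_apply] at e1
  have e2 : Φ ((1 : F), (0 : F), -(0 : F), -(0 : F)) = Φ (1, 0, 0, 0) := by rw [neg_zero]
  simp only [e2] at e1
  rw [← ha, ← map_neg] at e1
  have e3 := Φ.injective e1
  have a1 : a.1 = 0 := eq_zero_of_neg hq.two (congrArg Prod.fst e3)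
  have a2 : a.2.1 = 0 := eq_zero_of_neg hq.two (congrArg (fun z : F × F × F × F => z.2.1) e3)
  have e4 : op Φ (o1 (n / m)) (Φ (1, 0, 0, 0)) = Φ (0, 0, 1, 0) := by
    rw [op_apply, o1_apply]
    simp
  have e5 : s (Φ (0, 0, 1, 0)) = Φ (n / m * a.2.2.1, n / m * a.2.2.2, 0, 0) := by
    rw [← e4, ← hc1, ← ha, op_apply, o1_apply, a1, a2]
  have e6 : B (s (Φ (1, 0, 0, 0))) (δ (Φ (0, 0, 1, 0))) = - B (δ (Φ (1, 0, 0, 0))) (s (Φ (0, 0, 1, 0))) := by
    rw [h2, h1, hq.skew, neg_neg]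
  have a4 : a.2.2.2 = 0 := by
    rw [← ha, e5, h.δ, h.δ, h.B, h.B] at e6
    simp only [mul_one, mul_zero, zero_sub, add_zero, sub_zero, zero_mul, neg_neg] at e6
    field_simp at e6
    exact eq_zero_of_neg hq.two e6.symm
  have e8 : s = a.2.2.1 • op Φ (o1 (n / m)) := by
    apply h.ext h1 (fun x => by rw [LinearMap.smul_apply, LinearMap.smul_apply, h.sa_o1.1, map_smul])
    · rw [← ha, LinearMap.smul_apply, e4, ← map_smul]
      congr 1
      ext <;> simp [a1, a2, a4]
    · rw [e5, LinearMap.smul_apply, op_apply, o1_apply, ← map_smul, a4]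
      congr 1
      ext <;> simp [mul_comm]
  exact ⟨a.2.2.1, e8, smul_sq h3 h.sa_o1.2.2 e8 h.e_ne⟩

theorem Crd.anti_anti (h : Crd B δ d m n Φ) (hq : Qd B δ d) {ν : F} {s : Module.End F V}
    (hs : s ∈ Sx B δ ν) (hc : ∀ x, op Φ o0 (s x) = - s (op Φ o0 x))
    (hc1 : ∀ x, op Φ (o1 (n / m)) (s x) = - s (op Φ (o1 (n / m)) x)) :
    ∃ b : F, s = b • op Φ (o2 d (n / m)) ∧ b * b * (-(d * (n / m))) = ν := by
  obtain ⟨h1, h2, h3⟩ := id hs
  have hm := h.m0
  have hn := h.n0
  have hd := hq.d0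
  obtain ⟨a, ha⟩ := Φ.surjective (s (Φ (1, 0, 0, 0)))
  have e1 := hc (Φ (1, 0, 0, 0))
  rw [← ha, op_apply, op_apply, o0_apply, o0_apply] at e1
  have e2 : Φ ((1 : F), (0 : F), -(0 : F), -(0 : F)) = Φ (1, 0, 0, 0) := by rw [neg_zero]
  simp only [e2] at e1
  rw [← ha, ← map_neg] at e1
  have e3 := Φ.injective e1
  have a1 : a.1 = 0 := eq_zero_of_neg hq.two (congrArg Prod.fst e3)
  have a2 : a.2.1 = 0 := eq_zero_of_neg hq.two (congrArg (fun z : F × F × F × F => z.2.1) e3)
  have e4 : op Φ (o1 (n / m)) (Φ (1, 0, 0, 0)) = Φ (0, 0, 1, 0) := by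
    rw [op_apply, o1_apply]
    simp
  have e5 : s (Φ (0, 0, 1, 0)) = - Φ (n / m * a.2.2.1, n / m * a.2.2.2, 0, 0) := by
    have := hc1 (Φ (1, 0, 0, 0))
    rw [e4, ← ha, op_apply, o1_apply, a1, a2] at this
    rw [this, neg_neg]
  have e6 : B (s (Φ (1, 0, 0, 0))) (Φ (0, 0, 1, 0)) = B (Φ (1, 0, 0, 0)) (s (Φ (0, 0, 1, 0))) := h2 _ _
  have a3 : a.2.2.1 = 0 := by
    rw [← ha, e5, map_neg, h.B, h.B] at e6
    simp only [mul_one, mul_zero, add_zero, sub_zero, zero_add, zero_mul] at e6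
    field_simp at e6
    exact eq_zero_of_neg hq.two e6
  have e8 : s = a.2.2.2 • op Φ (o2 d (n / m)) := by
    apply h.ext h1 (fun x => by rw [LinearMap.smul_apply, LinearMap.smul_apply, h.sa_o2.1, map_smul])
    · rw [← ha, LinearMap.smul_apply, op_apply, o2_apply, ← map_smul]
      congr 1
      ext <;> simp [a1, a2, a3]
    · rw [e5, LinearMap.smul_apply, op_apply, o2_apply, ← map_smul, a3, ← map_neg]
      congr 1
      ext <;> simp [mul_comm]
  exact ⟨a.2.2.2, e8, smul_sq h3 h.sa_o2.2.2 e8 h.e_ne⟩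

/-! ### Pairs -/

/-- the pairs `{s, -s}` -/
abbrev Pr (B : V →ₗ[F] V →ₗ[F] F) (δ : Module.End F V) (ν : F) : Type u :=
  {ω : Set (Module.End F V) // ∃ s ∈ Sx B δ ν, ω = {s, -s}}

/-- conjugation by `a`, `a² = α` -/
def cj (a : Module.End F V) (α : F) (s : Module.End F V) : Module.End F V := α⁻¹ • (a * s * a)

theorem cj_apply (a : Module.End F V) (α : F) (s : Module.End F V) (x : V) : cj a α s x = α⁻¹ • a (s (a x)) := rfl

theorem cj_neg (a : Module.End F V) (α : F) (s : Module.End F V) : cj a α (-s) = - cj a α s := by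
  ext x
  rw [cj_apply, LinearMap.neg_apply, LinearMap.neg_apply, cj_apply, map_neg, smul_neg]

theorem cj_mem {α ν : F} (hα : α ≠ 0) {a s : Module.End F V} (ha : a ∈ Sx B δ α) (hs : s ∈ Sx B δ ν) :
    cj a α s ∈ Sx B δ ν := by
  obtain ⟨h1, h2, h3⟩ := hs
  obtain ⟨a1, a2, a3⟩ := ha
  refine ⟨fun x => ?_, fun x y => ?_, fun x => ?_⟩
  · rw [cj_apply, cj_apply, a1, h1, a1, map_smul]
  · rw [cj_apply, cj_apply, map_smul, LinearMap.smul_apply, map_smul, a2, h2, a2]
  · simp only [cj_apply, map_smul, a3, h3, smul_smul]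
    congr 1
    field_simp

theorem cj_cj {α : F} (hα : α ≠ 0) {a : Module.End F V} (ha : a ∈ Sx B δ α) (s : Module.End F V) :
    cj a α (cj a α s) = s := by
  obtain ⟨a1, a2, a3⟩ := ha
  ext x
  simp only [cj_apply, map_smul, a3, smul_smul]
  refine Eq.trans ?_ (one_smul F (s x))
  congr 1
  field_simp

/-- conjugation on the pairs -/
def th {α ν : F} (hα : α ≠ 0) {a : Module.End F V} (ha : a ∈ Sx B δ α) (ω : Pr B δ ν) : Pr B δ ν :=
  ⟨cj a α '' ω.1, by
    obtain ⟨s, hs, h⟩ := ω.2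
    refine ⟨cj a α s, cj_mem hα ha hs, ?_⟩
    rw [h, Set.image_pair, cj_neg]⟩

theorem th_th {α ν : F} (hα : α ≠ 0) {a : Module.End F V} (ha : a ∈ Sx B δ α) (ω : Pr B δ ν) :
    th hα ha (th hα ha ω) = ω := by
  apply Subtype.ext
  show cj a α '' (cj a α '' ω.1) = ω.1
  rw [Set.image_image]
  simp only [cj_cj hα ha, Set.image_id']

theorem fix_th {α ν : F} (hα : α ≠ 0) {a : Module.End F V} (ha : a ∈ Sx B δ α) {ω : Pr B δ ν}
    (hω : th hα ha ω = ω) {s : Module.End F V} (hs : ω.1 = {s, -s}) :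
    (∀ x, a (s x) = s (a x)) ∨ ∀ x, a (s x) = - s (a x) := by
  have h1 : cj a α s ∈ ω.1 := by
    rw [← hω]
    exact ⟨s, by rw [hs]; simp, rfl⟩
  rw [hs] at h1
  have key : ∀ x, a (s x) = cj a α s (a x) := by
    intro x
    rw [cj_apply, ha.2.2, map_smul, map_smul, smul_smul, inv_mul_cancel₀ hα, one_smul]
  rcases h1 with h1 | h1
  · left
    intro x
    rw [key, h1]
  · right
    intro x
    rw [key, Set.mem_singleton_iff.1 h1, LinearMap.neg_apply]

theorem th_fix {α ν : F} (hα : α ≠ 0) {a : Module.End F V} (ha : a ∈ Sx B δ α) {ω : Pr B δ ν}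
    {s : Module.End F V} (hs : ω.1 = {s, -s}) (h : (∀ x, a (s x) = s (a x)) ∨ ∀ x, a (s x) = - s (a x)) :
    th hα ha ω = ω := by
  apply Subtype.ext
  show cj a α '' ω.1 = ω.1
  have h1 : cj a α s = s ∨ cj a α s = - s := by
    rcases h with h | h
    · left
      ext x
      rw [cj_apply, h, ha.2.2, map_smul, smul_smul, inv_mul_cancel₀ hα, one_smul]
    · right
      ext x
      rw [cj_apply, h, ha.2.2, map_smul, smul_neg, smul_smul, inv_mul_cancel₀ hα, one_smul, LinearMap.neg_apply]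
  rw [hs, Set.image_pair, cj_neg]
  rcases h1 with h1 | h1
  · rw [h1]
  · rw [h1, neg_neg, Set.pair_comm]

theorem Sx.smul {κ : F} {t : Module.End F V} (h : t ∈ Sx B δ κ) (b : F) : b • t ∈ Sx B δ (b * b * κ) := by
  obtain ⟨h1, h2, h3⟩ := h
  refine ⟨fun x => ?_, fun x y => ?_, fun x => ?_⟩
  · rw [LinearMap.smul_apply, LinearMap.smul_apply, h1, map_smul]
  · rw [LinearMap.smul_apply, LinearMap.smul_apply, map_smul, LinearMap.smul_apply, h2, map_smul]
  · rw [LinearMap.smul_apply, LinearMap.smul_apply, map_smul, h3, smul_smul, smul_smul, mul_assoc]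

theorem Crd.o0_o2 (_ : Crd B δ d m n Φ) (x : V) :
    op Φ o0 (op Φ (o2 d (n / m)) x) = - op Φ (o2 d (n / m)) (op Φ o0 x) := by
  obtain ⟨y, rfl⟩ := Φ.surjective x
  rw [op_apply, op_apply, op_apply, op_apply, ← map_neg]
  congr 1
  ext <;> simp [o0_apply, o2_apply]

theorem Crd.o1_o2 (_ : Crd B δ d m n Φ) (x : V) :
    op Φ (o1 (n / m)) (op Φ (o2 d (n / m)) x) = - op Φ (o2 d (n / m)) (op Φ (o1 (n / m)) x) := by
  obtain ⟨y, rfl⟩ := Φ.surjective x
  rw [op_apply, op_apply, op_apply, op_apply, ← map_neg]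
  congr 1
  ext <;> simp only [o1_apply, o2_apply, Prod.fst_neg, Prod.snd_neg] <;> ring

theorem Crd.o0_o1 (_ : Crd B δ d m n Φ) (x : V) :
    op Φ o0 (op Φ (o1 (n / m)) x) = - op Φ (o1 (n / m)) (op Φ o0 x) := by
  obtain ⟨y, rfl⟩ := Φ.surjective x
  rw [op_apply, op_apply, op_apply, op_apply, ← map_neg]
  congr 1
  ext <;> simp [o0_apply, o1_apply]

theorem sq_mul [Finite F] {a b : F} (ha : ¬ IsSquare a) (hb : ¬ IsSquare b) : IsSquare (a * b) := by
  classical
  have := Fintype.ofFinite F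
  have ha0 : a ≠ 0 := by rintro rfl; exact ha (IsSquare.zero)
  have hb0 : b ≠ 0 := by rintro rfl; exact hb (IsSquare.zero)
  by_cases h2 : ringChar F = 2
  · exact FiniteField.isSquare_of_char_two h2 _
  · rw [← quadraticChar_one_iff_isSquare (mul_ne_zero ha0 hb0), map_mul,
      quadraticChar_neg_one_iff_not_isSquare.2 ha, quadraticChar_neg_one_iff_not_isSquare.2 hb]
    norm_num

/-- the number of the pairs is odd -/
theorem Crd.odd_card [Finite F] [Finite V] (h : Crd B δ d m n Φ) (hq : Qd B δ d) (hd : ¬ IsSquare (-d)) {ν : F}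
    (hν : ¬ IsSquare ν) : Nat.card (Pr B δ ν) % 2 = 1 := by
  classical
  have hm := h.m0
  have hn := h.n0
  have hμ : n / m ≠ 0 := div_ne_zero hn hm
  have hfin : Finite (Module.End F V) := Finite.of_injective (fun f : Module.End F V => (f : V → V)) DFunLike.coe_injective
  have : Finite (Pr B δ ν) := inferInstance
  rw [parity_two (th one_ne_zero h.sa_o0) (th hμ h.sa_o1) (th_th _ _) (th_th _ _) (by
    intro ω
    apply Subtype.ext
    show cj (op Φ o0) 1 '' (cj (op Φ (o1 (n / m))) (n / m) '' ω.1) =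
      cj (op Φ (o1 (n / m))) (n / m) '' (cj (op Φ o0) 1 '' ω.1)
    rw [Set.image_image, Set.image_image]
    apply Set.image_congr
    intro s _
    ext x
    simp only [cj_apply, map_smul, h.o0_o1, map_neg, smul_neg]
    rw [smul_comm])]
  have hcase : ∀ s ∈ Sx B δ ν, ∀ ω : Pr B δ ν, ω.1 = {s, -s} → th one_ne_zero h.sa_o0 ω = ω →
      th hμ h.sa_o1 ω = ω → (∃ b : F, s = b • op Φ (o1 (n / m)) ∧ b * b * (n / m) = ν) ∨
        ∃ b : F, s = b • op Φ (o2 d (n / m)) ∧ b * b * (-(d * (n / m))) = ν := by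
    intro s hs ω hω h0 h1
    have c0 : ∀ x, op Φ o0 (s x) = - s (op Φ o0 x) := by
      rcases fix_th _ _ h0 hω with h2 | h2
      · exact (h.not_comm hq hν hs h2).elim
      · exact h2
    rcases fix_th _ _ h1 hω with h2 | h2
    · exact Or.inl (h.anti_comm hq hs c0 h2)
    · exact Or.inr (h.anti_anti hq hs c0 h2)
  have hν0 : ν ≠ 0 := by rintro rfl; exact hν IsSquare.zero
  -- the two cases exclude each other
  have hexcl : ∀ b c : F, b * b * (n / m) = ν → c * c * (-(d * (n / m))) = ν → False := by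
    intro b c hb hc
    have hc0 : c ≠ 0 := by
      rintro rfl
      rw [mul_zero, zero_mul] at hc
      exact hν0 hc.symm
    apply hd
    refine ⟨b / c, ?_⟩
    field_simp
    have : (b * b - c * c * (-d)) * (n / m) = 0 := by linear_combination hb - hc
    have h2 := (mul_eq_zero.1 this).resolve_right hμ
    linear_combination -h2
  have hpm : ∀ (b c κ : F), κ ≠ 0 → b * b * κ = ν → c * c * κ = ν → b = c ∨ b = -c := by
    intro b c κ hκ hb hc
    have h1 : (b - c) * (b + c) * κ = 0 := by linear_combination hb - hc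
    rcases mul_eq_zero.1 ((mul_eq_zero.1 h1).resolve_right hκ) with h2 | h2
    · exact Or.inl (sub_eq_zero.1 h2)
    · exact Or.inr (eq_neg_of_add_eq_zero_left h2)
  have huniq : Nat.card {ω : Pr B δ ν // th one_ne_zero h.sa_o0 ω = ω ∧ th hμ h.sa_o1 ω = ω} = 1 := by
    rw [Nat.card_eq_one_iff_unique]
    constructor
    · constructor
      rintro ⟨ω, h0, h1⟩ ⟨ω', h0', h1'⟩
      apply Subtype.ext
      apply Subtype.ext
      obtain ⟨s, hs, hω⟩ := ω.2
      obtain ⟨s', hs', hω'⟩ := ω'.2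
      show ω.1 = ω'.1
      have hss : ∀ (t : Module.End F V) (b c : F), s = b • t → s' = c • t → (b = c ∨ b = -c) → ω.1 = ω'.1 := by
        intro t b c e1 e2 e3
        rw [hω, hω', e1, e2]
        rcases e3 with rfl | rfl
        · rfl
        · rw [neg_smul, neg_neg, Set.pair_comm]
      have hdn : d * (n / m) ≠ 0 := mul_ne_zero hq.d0 hμ
      rcases hcase s hs ω hω h0 h1 with ⟨b, e1, e2⟩ | ⟨b, e1, e2⟩ <;>
        rcases hcase s' hs' ω' hω' h0' h1' with ⟨c, e3, e4⟩ | ⟨c, e3, e4⟩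
      · exact hss _ b c e1 e3 (hpm b c _ hμ e2 e4)
      · exact (hexcl b c e2 e4).elim
      · exact (hexcl c b e4 e2).elim
      · exact hss _ b c e1 e3 (hpm b c _ (neg_ne_zero.2 hdn) e2 e4)
    · by_cases hsq : IsSquare (ν / (n / m))
      · obtain ⟨b, hb⟩ := hsq
        have hb' : b * b * (n / m) = ν := by rw [← hb, div_mul_cancel₀ _ hμ]
        have hs := Sx.smul h.sa_o1 b
        rw [hb'] at hs
        refine ⟨⟨⟨{b • op Φ (o1 (n / m)), -(b • op Φ (o1 (n / m)))}, _, hs, rfl⟩, th_fix _ _ rfl (Or.inr fun x => ?_),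
          th_fix _ _ rfl (Or.inl fun x => ?_)⟩⟩
        · rw [LinearMap.smul_apply, LinearMap.smul_apply, map_smul, h.o0_o1, smul_neg]
        · rw [LinearMap.smul_apply, LinearMap.smul_apply, map_smul]
      · have h1 := sq_mul hsq (b := (-d)⁻¹) (fun h2 => hd (by
          have := h2.inv
          rwa [inv_inv] at this))
        obtain ⟨b, hb⟩ := h1
        have hd0 := hq.d0
        have hb' : b * b * (-(d * (n / m))) = ν := by
          rw [← hb, div_mul_eq_mul_div, div_mul_eq_mul_div, div_eq_iff hμ]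
          field_simp
        have hs := Sx.smul h.sa_o2 b
        rw [hb'] at hs
        refine ⟨⟨⟨{b • op Φ (o2 d (n / m)), -(b • op Φ (o2 d (n / m)))}, _, hs, rfl⟩, th_fix _ _ rfl (Or.inr fun x => ?_),
          th_fix _ _ rfl (Or.inr fun x => ?_)⟩⟩
        · rw [LinearMap.smul_apply, LinearMap.smul_apply, map_smul, h.o0_o2, smul_neg]
        · rw [LinearMap.smul_apply, LinearMap.smul_apply, map_smul, h.o1_o2, smul_neg]
  rw [huniq]

end coord

/-! ### The action of a 2-group -/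

section act

variable {B : V →ₗ[F] V →ₗ[F] F} {δ : Module.End F V} {d ν : F}

/-- `g` is a similarity of `B` that centralises or negates `δ` -/
def Gd (B : V →ₗ[F] V →ₗ[F] F) (δ : Module.End F V) (g : V ≃ₗ[F] V) : Prop :=
  (∃ η : F, η ≠ 0 ∧ ∀ x y, B (g x) (g y) = η * B x y) ∧ ((∀ x, g (δ x) = δ (g x)) ∨ ∀ x, g (δ x) = - δ (g x))

theorem Gd.symm {g : V ≃ₗ[F] V} (h : Gd B δ g) : Gd B δ g⁻¹ := by
  obtain ⟨⟨η, h0, h1⟩, h2⟩ := h
  refine ⟨⟨η⁻¹, inv_ne_zero h0, fun x y => ?_⟩, ?_⟩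
  · have := h1 (g⁻¹ x) (g⁻¹ y)
    have e : ∀ z, g (g⁻¹ z) = z := fun z => g.apply_symm_apply z
    rw [e, e] at this
    rw [this, ← mul_assoc, inv_mul_cancel₀ h0, one_mul]
  · have e : ∀ z, g (g⁻¹ z) = z := fun z => g.apply_symm_apply z
    rcases h2 with h2 | h2
    · left
      intro x
      apply g.injective
      rw [h2, e, e]
    · right
      intro x
      apply g.injective
      rw [map_neg, h2, e, e, neg_neg]

theorem conj_mem {g : V ≃ₗ[F] V} (hg : Gd B δ g) {s : Module.End F V} (hs : s ∈ Sx B δ ν) :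
    g.conj s ∈ Sx B δ ν := by
  obtain ⟨h1, h2, h3⟩ := hs
  obtain ⟨⟨η, e0, e1⟩, e2⟩ := hg
  have e : ∀ z, g (g.symm z) = z := fun z => g.apply_symm_apply z
  have e' : ∀ z, g.symm (g z) = z := fun z => g.symm_apply_apply z
  have c : ∀ z, g.conj s z = g (s (g.symm z)) := fun z => rfl
  refine ⟨fun x => ?_, fun x y => ?_, fun x => ?_⟩
  · rw [c, c]
    rcases e2 with e2 | e2
    · have : g.symm (δ x) = δ (g.symm x) := by
        apply g.injective
        rw [e2, e, e]
      rw [this, h1, e2]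
    · have : g.symm (δ x) = - δ (g.symm x) := by
        apply g.injective
        rw [map_neg, e2, e, e, neg_neg]
      rw [this, map_neg, h1, map_neg, e2, neg_neg]
  · rw [c, c]
    have a1 := e1 (s (g.symm x)) (g.symm y)
    have a2 := e1 (g.symm x) (s (g.symm y))
    rw [e] at a1 a2
    rw [a1, a2, h2]
  · rw [c, c, e', h3, map_smul, e]

/-- the action of a group of similarities on the pairs -/
@[reducible] def prAct (P : Subgroup (V ≃ₗ[F] V)) (hP : ∀ g ∈ P, Gd B δ g) : MulAction P (Pr B δ ν) where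
  smul g ω := ⟨(g : V ≃ₗ[F] V).conj '' ω.1, by
    obtain ⟨s, hs, h⟩ := ω.2
    refine ⟨(g : V ≃ₗ[F] V).conj s, conj_mem (hP g g.2) hs, ?_⟩
    rw [h, Set.image_pair, map_neg]⟩
  one_smul ω := by
    apply Subtype.ext
    show (1 : V ≃ₗ[F] V).conj '' ω.1 = ω.1
    have : ∀ s : Module.End F V, (1 : V ≃ₗ[F] V).conj s = s := fun s => rfl
    simp only [this, Set.image_id']
  mul_smul g g' ω := by
    apply Subtype.ext
    show ((g : V ≃ₗ[F] V) * (g' : V ≃ₗ[F] V)).conj '' ω.1 = (g : V ≃ₗ[F] V).conj '' ((g' : V ≃ₗ[F] V).conj '' ω.1)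
    rw [Set.image_image]
    rfl

/-- **A 2-group of similarities that centralise or negate `δ` centralises or negates some `s`.** -/
theorem Qd.exists_fix [Finite F] [FiniteDimensional F V] (hq : Qd B δ d) (hn : finrank F V = 4)
    (hd : ¬ IsSquare (-d)) (hν : ¬ IsSquare ν) (P : Subgroup (V ≃ₗ[F] V)) (hP2 : IsPGroup 2 P)
    (hP : ∀ g ∈ P, Gd B δ g) :
    ∃ s ∈ Sx B δ ν, ∀ g ∈ P, (∀ x, g (s x) = s (g x)) ∨ ∀ x, g (s x) = - s (g x) := by
  have : Finite V := Module.finite_of_finite F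
  obtain ⟨m, n, Φ, hc⟩ := hq.exists_crd hn
  have hcard := hc.odd_card hq hd hν
  have hfin : Finite (Module.End F V) := Finite.of_injective (fun f : Module.End F V => (f : V → V)) DFunLike.coe_injective
  have : Finite (Pr B δ ν) := inferInstance
  let _ := prAct (ν := ν) P hP
  have : Fact (Nat.Prime 2) := ⟨Nat.prime_two⟩
  obtain ⟨ω, hω⟩ := hP2.nonempty_fixed_point_of_prime_not_dvd_card (Pr B δ ν) (by omega)
  obtain ⟨s, hs, h⟩ := ω.2
  refine ⟨s, hs, fun g hg => ?_⟩
  have h1 : (g : V ≃ₗ[F] V).conj '' ω.1 = ω.1 := congrArg Subtype.val (hω ⟨g, hg⟩)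
  have h2 : g.conj s ∈ ω.1 := by
    rw [← h1]
    exact ⟨s, by rw [h]; simp, rfl⟩
  have c : ∀ z, g.conj s (g z) = g (s z) := fun z => by
    show g (s (g.symm (g z))) = _
    rw [g.symm_apply_apply]
  rw [h] at h2
  rcases h2 with h2 | h2
  · left
    intro x
    rw [← c, h2]
  · right
    intro x
    rw [← c, Set.mem_singleton_iff.1 h2, LinearMap.neg_apply]

end act

end Cfsg.Agent.H194.FR
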