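import Cfsg.Agent.H194.FR.Str
import Cfsg.Agent.H619.FR.Cls

/-!
# S4970, FR-N4: dimension four, `c + c⁻¹ = τ`, `4 - τ²` not a square (helper194)

* `cov_dt`  : the general form, with `δ` and `s`;
* `cov_n4`  : `finrank F V = 4`, `c + c⁻¹ = τ`, `4 - τ²` not a square: `Cov B ε c P` for every 2-group `P` of isometries
  that centralise or invert `c`;
* `not_isSquare_of` : the hypothesis `4 - τ²` not a square in terms of the roots of `X² - τ X + 1` and `q mod 4`.
-/

set_option autoImplicit false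

universe u

namespace Cfsg.Agent.H194.FR

open Module Cfsg.Agent.H721.FR

variable {F V : Type u} [Field F] [AddCommGroup V] [Module F V]

theorem zel_apply {ε : F} (hε : ε = 1 ∨ ε = -1) (x : V) : zel V ε x = ε • x := by
  unfold zel
  split_ifs with h
  · rw [h, one_smul]
    rfl
  · rcases hε with h1 | h1
    · exact absurd h1 h
    · rw [h1, neg_smul, one_smul]
      rfl

theorem ee_of {ε : F} (hε : ε = 1 ∨ ε = -1) : ε * ε = 1 := by
  rcases hε with h | h <;> rw [h] <;> ring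

/-- the class lemma for the group `YY` -/
theorem Kd.fszs {B : V →ₗ[F] V →ₗ[F] F} {ε : F} {δ s : Module.End F V} {d ν f0 f1 : F}
    {Φ : (F × F × F × F) ≃ₗ[F] V} [Finite V] (h : Kd B ε δ s d ν f0 f1 Φ) (hε : ε = 1 ∨ ε = -1) :
    FSZs (YY B δ s) (zel V ε) := by
  classical
  set t := tr Φ (mt ε h.ee) with ht
  set w := tr Φ mw with hw
  have hww : w * w = 1 := h.w_w
  have htw : t * w = w * t := h.t_w
  have hzel : ∀ x, zel V ε x = ε • x := zel_apply hε
  have hfin : Finite (V ≃ₗ[F] V) := Finite.of_injective (fun f : V ≃ₗ[F] V => (f : V → V)) DFunLike.coe_injective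
  have htY : t ∈ YY B δ s := ⟨h.t_isom, Or.inl h.t_s, Or.inr h.t_δ⟩
  have hwY : w ∈ YY B δ s := ⟨h.w_isom, Or.inr h.w_s, h.w_δ⟩
  have hinv : ∀ a ∈ AA B δ s, t * a * t⁻¹ = a⁻¹ := fun a ha => h.t_inv ha
  have hE : ∀ e ∈ Subgroup.zpowers w, e = 1 ∨ e = w := by
    rintro _ ⟨k, rfl⟩
    have h2 : w ^ (2 : ℤ) = 1 := by rw [zpow_ofNat, pow_two, hww]
    rcases Int.even_or_odd' k with ⟨j, hj | hj⟩
    · left
      show w ^ k = 1
      rw [hj, zpow_mul, h2, one_zpow]
    · right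
      show w ^ k = w
      rw [hj, zpow_add, zpow_mul, h2, one_zpow, one_mul, zpow_one]
  have hneg : ∀ (a : V ≃ₗ[F] V) (r : Module.End F V), (∀ x, a (r x) = r (a x)) ∨ (∀ x, a (r x) = - r (a x)) →
      ∀ x, a (r (a⁻¹ x)) = r x ∨ a (r (a⁻¹ x)) = - r x := by
    intro a r har x
    have e : a (a⁻¹ x) = x := a.apply_symm_apply x
    rcases har with h1 | h1
    · left; rw [h1, e]
    · right; rw [h1, e]
  refine Cfsg.Agent.H619.FR.fszs_cls (A := AA B δ s) (E := Subgroup.zpowers w) (Y := YY B δ s) (t := t)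
    (z := zel V ε) (AA_le B δ s) (by rw [Subgroup.zpowers_le]; exact hwY) ?_ ?_ ?_ htY ?_ ?_ ?_ ?_ ?_ hinv ?_
  · -- `A` is normal
    rintro y ⟨y1, y2, y3⟩ a ⟨a1, a2, a3⟩
    have e : ∀ x, (y * a * y⁻¹) x = y (a (y⁻¹ x)) := fun x => rfl
    have e' : ∀ x, y⁻¹ (y x) = x := fun x => y.symm_apply_apply x
    have e'' : ∀ x, y (y⁻¹ x) = x := fun x => y.apply_symm_apply x
    have gen : ∀ r : Module.End F V, ((∀ x, y (r x) = r (y x)) ∨ ∀ x, y (r x) = - r (y x)) →
        (∀ x, a (r x) = r (a x)) → ∀ x, (y * a * y⁻¹) (r x) = r ((y * a * y⁻¹) x) := by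
      intro r hr ha x
      rw [e, e]
      rcases hr with hr | hr
      · have : y⁻¹ (r x) = r (y⁻¹ x) := by
          apply y.injective
          rw [e'', hr, e'']
        rw [this, ha, hr]
      · have : y⁻¹ (r x) = - r (y⁻¹ x) := by
          apply y.injective
          rw [e'', map_neg, hr, e'', neg_neg]
        rw [this, map_neg, map_neg, ha, hr, neg_neg]
    exact ⟨mul_mem (mul_mem y1 a1) (inv_mem y1), gen s y2 a2, gen δ y3 a3⟩
  · -- `A` is commutative
    intro a ha b hb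
    have h1 := hinv (a * b) (mul_mem ha hb)
    have h2 : t * (a * b) * t⁻¹ = (t * a * t⁻¹) * (t * b * t⁻¹) := by group
    rw [h2, hinv a ha, hinv b hb, mul_inv_rev] at h1
    have h3 := congrArg (fun g => g⁻¹) h1
    simp only [mul_inv_rev, inv_inv] at h3
    exact h3.symm
  · intro e he
    rcases hE e he with rfl | rfl
    · exact one_mul 1
    · exact hww
  · refine ⟨fun x y => ?_, fun x => ?_, fun x => ?_⟩
    · rw [hzel, hzel, map_smul, map_smul, LinearMap.smul_apply, smul_smul, ee_of hε, one_smul]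
    · rw [hzel, hzel, map_smul]
    · rw [hzel, hzel, map_smul]
  · intro y _
    ext x
    show y (zel V ε x) = zel V ε (y x)
    rw [hzel, hzel, map_smul]
  · ext x
    show zel V ε (zel V ε x) = x
    rw [hzel, hzel, smul_smul, ee_of hε, one_smul]
  · intro e he
    rcases hE e he with rfl | rfl
    · rw [mul_one, one_mul]
    · exact htw
  · ext x
    show t (t x) = zel V ε x
    rw [hzel]
    exact h.t_t x
  · -- generation
    set C := Subgroup.closure ((AA B δ s : Set (V ≃ₗ[F] V)) ∪ Subgroup.zpowers w ∪ {t}) with hC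
    have hAC : ∀ a ∈ AA B δ s, a ∈ C := fun a ha => Subgroup.subset_closure (Or.inl (Or.inl ha))
    have hwC : w ∈ C := Subgroup.subset_closure (Or.inl (Or.inr (Subgroup.mem_zpowers w)))
    have htC : t ∈ C := Subgroup.subset_closure (Or.inr rfl)
    -- elements commuting with `s`
    have step1 : ∀ g ∈ YY B δ s, (∀ x, g (s x) = s (g x)) → g ∈ C := by
      rintro g ⟨g1, -, g3⟩ gs
      rcases g3 with g3 | g3
      · exact hAC g ⟨g1, gs, g3⟩
      · have : t * g ∈ AA B δ s := by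
          refine ⟨mul_mem h.t_isom g1, fun x => ?_, fun x => ?_⟩
          · show t (g (s x)) = s (t (g x))
            rw [gs]
            exact h.t_s _
          · show t (g (δ x)) = δ (t (g x))
            rw [g3, map_neg]
            have := h.t_δ (g x)
            rw [this, neg_neg]
        have h2 := mul_mem (inv_mem htC) (hAC _ this)
        rwa [inv_mul_cancel_left] at h2
    intro g hg
    rcases hg.2.1 with gs | gs
    · exact step1 g hg gs
    · have h2 := step1 (w * g) (mul_mem hwY hg) (fun x => by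
        show w (g (s x)) = s (w (g x))
        rw [gs, map_neg]
        have := h.w_s (g x)
        rw [this, neg_neg])
      have h3 := mul_mem (inv_mem hwC) h2
      rwa [inv_mul_cancel_left] at h3

/-- **general form** -/
theorem cov_dt [Finite F] [FiniteDimensional F V] {B : V →ₗ[F] V →ₗ[F] F} {ε : F} (hF : Fm B ε)
    (hn : finrank F V = 4) {δ : Module.End F V} {d : F} (dd : ∀ x, δ (δ x) = d • x)
    (skew : ∀ x y, B (δ x) y = - B x (δ y)) (hd : ¬ IsSquare (-d)) {P : Subgroup (V ≃ₗ[F] V)} (hPI : P ≤ Isom B)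
    (hP2 : IsPGroup 2 P) (act : ∀ g ∈ P, (∀ x, g (δ x) = δ (g x)) ∨ ∀ x, g (δ x) = - δ (g x)) :
    ∃ s : Module.End F V, P ≤ YY B δ s ∧ FSZs (YY B δ s) (zel V ε) ∧
      (∀ c ∈ Isom B, (∀ x, c (s x) = s (c x)) → (∀ x, c (δ x) = δ (c x)) → c ∈ YY B δ s) ∧ s ∈ Sx B δ (-d) := by
  have : Finite V := Module.finite_of_finite F
  have hd0 : d ≠ 0 := by
    rintro rfl
    apply hd
    rw [neg_zero]
    exact IsSquare.zero
  have hε : ε = 1 ∨ ε = -1 := hF.eps.imp id And.left
  have key : ∃ s ∈ Sx B δ (-d), ∀ g ∈ P, (∀ x, g (s x) = s (g x)) ∨ ∀ x, g (s x) = - s (g x) := by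
    rcases hε with h1 | h1
    · have hq : Qd B δ d := ⟨hF.two, hF.nondeg, fun x y => by rw [hF.symm, h1, one_mul], dd, skew, hd0⟩
      exact hq.exists_fix hn hd hd P hP2 fun g hg =>
        ⟨⟨1, one_ne_zero, fun x y => by rw [hPI hg x y, one_mul]⟩, act g hg⟩
    · -- the symmetric form `B(x, δ y)`
      let B' : V →ₗ[F] V →ₗ[F] F := B.compl₁₂ LinearMap.id δ
      have hB' : ∀ x y, B' x y = B x (δ y) := fun x y => rfl
      have hq : Qd B' δ d := by
        refine ⟨hF.two, fun x hx => ?_, fun x y => ?_, dd, fun x y => ?_, hd0⟩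
        · apply hF.nondeg
          intro y
          have := hx (d⁻¹ • δ y)
          rw [hB', map_smul, dd, smul_smul, inv_mul_cancel₀ hd0, one_smul] at this
          exact this
        · rw [hB', hB', hF.symm, h1, skew]
          ring
        · rw [hB', hB', skew, dd]
      obtain ⟨s, hs, hsP⟩ := hq.exists_fix hn hd hd P hP2 fun g hg => by
        refine ⟨?_, act g hg⟩
        rcases act g hg with h2 | h2
        · exact ⟨1, one_ne_zero, fun x y => by rw [hB', hB', ← h2, hPI hg x (δ y), one_mul]⟩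
        · refine ⟨-1, neg_ne_zero.2 one_ne_zero, fun x y => ?_⟩
          have h3 : δ (g y) = - g (δ y) := by rw [h2, neg_neg]
          rw [hB', hB', h3, map_neg, hPI hg x (δ y)]
          ring
      refine ⟨s, ⟨hs.1, fun x y => ?_, hs.2.2⟩, hsP⟩
      have h2 := hs.2.1 x (d⁻¹ • δ y)
      simp only [hB', map_smul, hs.1, dd, smul_eq_mul] at h2
      rwa [← mul_assoc, ← mul_assoc, inv_mul_cancel₀ hd0, one_mul, one_mul] at h2
  obtain ⟨s, hs, hsP⟩ := key
  have hD : Dt B ε δ s d (-d) := ⟨hF.two, hF.nondeg, ee_of hε, hF.symm, dd, skew, hd0, hs, hd⟩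
  obtain ⟨f0, f1, Φ, hK⟩ := hD.exists_kd hn
  exact ⟨s, fun g hg => ⟨hPI hg, hsP g hg, act g hg⟩, hK.fszs hε, fun c hc c1 c2 => ⟨hc, Or.inl c1, Or.inl c2⟩, hs⟩

/-- **FR-N4** -/
theorem cov_n4 [Finite F] [FiniteDimensional F V] {B : V →ₗ[F] V →ₗ[F] F} {ε : F} (hF : Fm B ε)
    (hn : finrank F V = 4) {c : V ≃ₗ[F] V} (hc : c ∈ Isom B) {τ : F} (hτ : ∀ x, c x + c.symm x = τ • x)
    (hns : ¬ IsSquare (4 - τ ^ 2)) {P : Subgroup (V ≃ₗ[F] V)} (hPI : P ≤ Isom B) (hP2 : IsPGroup 2 P)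
    (act : ∀ g ∈ P, g * c * g⁻¹ = c ∨ g * c * g⁻¹ = c⁻¹) : Cov B ε c P := by
  let δ : Module.End F V := (c : V →ₗ[F] V) - (c.symm : V →ₗ[F] V)
  have hδ : ∀ x, δ x = c x - c.symm x := fun x => rfl
  have hcs : ∀ x, c (c.symm x) = x := fun x => c.apply_symm_apply x
  have hsc : ∀ x, c.symm (c x) = x := fun x => c.symm_apply_apply x
  have dd : ∀ x, δ (δ x) = (τ ^ 2 - 4) • x := by
    intro x
    have e1 : τ • (τ • x) = c (c x) + c.symm (c.symm x) + (2 : F) • x := by
      rw [← hτ x, smul_add, ← hτ (c x), ← hτ (c.symm x), hcs, hsc, two_smul]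
      abel
    have e2 : (τ ^ 2 - 4) • x = τ • (τ • x) - (4 : F) • x := by module
    rw [e2, e1, hδ, hδ, map_sub, map_sub, hcs, hsc]
    module
  have skew : ∀ x y, B (δ x) y = - B x (δ y) := by
    intro x y
    have e1 : B (c x) y = B x (c.symm y) := by
      have := hc x (c.symm y)
      rwa [hcs] at this
    have e2 : B (c.symm x) y = B x (c y) := by
      have := hc (c.symm x) y
      rw [hcs] at this
      exact this.symm
    rw [hδ, hδ, map_sub, map_sub, LinearMap.sub_apply, e1, e2, neg_sub]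
  have hdd : -(τ ^ 2 - 4) = 4 - τ ^ 2 := by ring
  have hact : ∀ g ∈ P, (∀ x, g (δ x) = δ (g x)) ∨ ∀ x, g (δ x) = - δ (g x) := by
    intro g hg
    have e1 : ∀ x, (g * c) x = g (c x) := fun _ => rfl
    rcases act g hg with h1 | h1
    · left
      have h2 : g * c = c * g := mul_inv_eq_iff_eq_mul.1 h1
      have h3 : ∀ x, g (c x) = c (g x) := fun x => congrArg (fun f : V ≃ₗ[F] V => f x) h2
      intro x
      have h4 : g (c.symm x) = c.symm (g x) := by
        apply c.injective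
        rw [← h3, hcs, hcs]
      rw [hδ, hδ, map_sub, h3, h4]
    · right
      have h2 : g * c = c⁻¹ * g := mul_inv_eq_iff_eq_mul.1 h1
      have h3 : ∀ x, g (c x) = c.symm (g x) := fun x => congrArg (fun f : V ≃ₗ[F] V => f x) h2
      intro x
      have h4 : g (c.symm x) = c (g x) := by
        apply c.symm.injective
        rw [← h3, hcs, hsc]
      rw [hδ, hδ, map_sub, h3, h4, neg_sub]
  obtain ⟨s, h1, h2, -, h4⟩ := cov_dt hF hn dd skew (by rwa [hdd]) hPI hP2 hact
  refine ⟨YY B δ s, fun g hg => hg.1, ⟨hc, Or.inl ?_, Or.inl ?_⟩, h1, h2⟩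
  · -- `2 c = τ + δ`
    intro x
    have h5 : ∀ x, c x = (2 : F)⁻¹ • (τ • x + δ x) := by
      intro x
      rw [hδ, ← hτ, eq_inv_smul_iff₀ hF.two]
      module
    rw [h5, h5, map_smul, map_add, map_smul, h4.1]
  · intro x
    rw [hδ, hδ, map_sub, hcs, hsc]

theorem not_isSquare_of [Finite F] (h2 : (2 : F) ≠ 0) {τ : F} (hτ : τ ≠ 2) (hτ' : τ ≠ -2)
    (h : ((∃ a : F, a * a + 1 = τ * a) ∧ Nat.card F % 4 = 3) ∨
      ((¬ ∃ a : F, a * a + 1 = τ * a) ∧ Nat.card F % 4 = 1)) : ¬ IsSquare (4 - τ ^ 2) := by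
  classical
  have := Fintype.ofFinite F
  rw [Nat.card_eq_fintype_card] at h
  have hne : τ ^ 2 - 4 ≠ 0 := by
    intro h0
    have : (τ - 2) * (τ + 2) = 0 := by linear_combination h0
    rcases mul_eq_zero.1 this with h3 | h3
    · exact hτ (sub_eq_zero.1 h3)
    · exact hτ' (eq_neg_of_add_eq_zero_left h3)
  rintro ⟨r, hr⟩
  rcases h with ⟨⟨a, ha⟩, hq⟩ | ⟨hns, hq⟩
  · have h3 : (2 * a - τ) * (2 * a - τ) = τ ^ 2 - 4 := by linear_combination 4 * ha
    have h4 : 2 * a - τ ≠ 0 := by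
      intro h0
      rw [h0, mul_zero] at h3
      exact hne h3.symm
    have h5 : IsSquare (-1 : F) := by
      refine ⟨r / (2 * a - τ), ?_⟩
      rw [div_mul_div_comm, ← hr, h3, eq_div_iff hne]
      ring
    rw [FiniteField.isSquare_neg_one_iff] at h5
    exact h5 hq
  · have h5 : IsSquare (-1 : F) := by
      rw [FiniteField.isSquare_neg_one_iff]
      omega
    obtain ⟨i, hi⟩ := h5
    apply hns
    refine ⟨(τ + i * r) / 2, ?_⟩
    field_simp
    linear_combination hr - r ^ 2 * hi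

/-- **FR-N4** in the form of the assembly -/
theorem cov_n4' [Finite F] [FiniteDimensional F V] {B : V →ₗ[F] V →ₗ[F] F} {ε : F} (hF : Fm B ε)
    {c : V ≃ₗ[F] V} {P : Subgroup (V ≃ₗ[F] V)} {τ : F} (hc : c ∈ Isom B) (hP : Mx B c P) (h2 : τ ≠ 2) (h2' : τ ≠ -2)
    (hτ : ∀ v, c v + c⁻¹ v = τ • v) (hn : finrank F V = 4)
    (h : ((∃ a : F, a * a + 1 = τ * a) ∧ Nat.card F % 4 = 3) ∨
      ((¬ ∃ a : F, a * a + 1 = τ * a) ∧ Nat.card F % 4 = 1)) : Cov B ε c P :=
  cov_n4 hF hn hc hτ (not_isSquare_of hF.two h2 h2' h) hP.le hP.two hP.act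

end Cfsg.Agent.H194.FR
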