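import Cfsg.Agent.H194.FR.Cnt

/-!
# S4970, FR-N4, part 2: the group of isometries which centralise or negate `δ` and `s` (helper194)
-/

set_option autoImplicit false

universe u

namespace Cfsg.Agent.H194.FR

open Module Cfsg.Agent.H721.FR

variable {F V : Type u} [Field F] [AddCommGroup V] [Module F V]

/-- the situation -/
structure Dt (B : V →ₗ[F] V →ₗ[F] F) (ε : F) (δ s : Module.End F V) (d ν : F) : Prop where
  two : (2 : F) ≠ 0
  nd : ∀ x, (∀ y, B x y = 0) → x = 0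
  ee : ε * ε = 1
  symm : ∀ x y, B x y = ε * B y x
  dd : ∀ x, δ (δ x) = d • x
  skew : ∀ x y, B (δ x) y = - B x (δ y)
  d0 : d ≠ 0
  sx : s ∈ Sx B δ ν
  ns : ¬ IsSquare ν

/-- coordinates adapted to the situation -/
structure Kd (B : V →ₗ[F] V →ₗ[F] F) (ε : F) (δ s : Module.End F V) (d ν f0 f1 : F)
    (Φ : (F × F × F × F) ≃ₗ[F] V) : Prop where
  two : (2 : F) ≠ 0
  ee : ε * ε = 1
  ff : f0 * f1 = 0
  f : f0 * f0 + ν * (f1 * f1) = d
  d0 : d ≠ 0
  ν0 : ν ≠ 0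
  B : ∀ x y, B (Φ x) (Φ y) = x.1 * y.2.2.1 + ν * (x.2.1 * y.2.2.2) + ε * (x.2.2.1 * y.1 + ν * (x.2.2.2 * y.2.1))
  s : ∀ x, s (Φ x) = Φ (ν * x.2.1, x.1, ν * x.2.2.2, x.2.2.1)
  δ : ∀ x, δ (Φ x) = Φ (f0 * x.1 + ν * f1 * x.2.1, f0 * x.2.1 + f1 * x.1, -(f0 * x.2.2.1 + ν * f1 * x.2.2.2),
    -(f0 * x.2.2.2 + f1 * x.2.2.1))

section

variable {B : V →ₗ[F] V →ₗ[F] F} {ε : F} {δ s : Module.End F V} {d ν : F}

theorem Dt.exists_f [Finite F] (h : Dt B ε δ s d ν) : ∃ f0 f1 : F, f0 * f1 = 0 ∧ f0 * f0 + ν * (f1 * f1) = d := by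
  by_cases hd : IsSquare d
  · obtain ⟨f, hf⟩ := hd
    exact ⟨f, 0, mul_zero _, by rw [mul_zero, mul_zero, add_zero, hf]⟩
  · obtain ⟨r, hr⟩ := sq_mul hd h.ns
    have hν : ν ≠ 0 := by rintro rfl; exact h.ns IsSquare.zero
    refine ⟨0, r / ν, zero_mul _, ?_⟩
    field_simp
    linear_combination -hr

/-- no eigenvector of `s` -/
theorem Dt.indep (h : Dt B ε δ s d ν) {v : V} (hv : v ≠ 0) {a b : F} (hab : a • v + b • s v = 0) : a = 0 ∧ b = 0 := by
  have hν : ν ≠ 0 := by rintro rfl; exact h.ns IsSquare.zero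
  have h1 := congrArg s hab
  rw [map_add, map_smul, map_smul, h.sx.2.2, map_zero, smul_smul] at h1
  have h2 : (a * a - b * b * ν) • v = 0 := by
    have : (a * a - b * b * ν) • v = a • (a • v + b • s v) - b • (a • s v + (b * ν) • v) := by
      module
    rw [this, hab, h1, smul_zero, smul_zero, sub_zero]
  have h3 := (smul_eq_zero.1 h2).resolve_right hv
  have hb : b = 0 := by
    by_contra hb
    apply h.ns
    refine ⟨a / b, ?_⟩
    field_simp
    linear_combination -h3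
  refine ⟨?_, hb⟩
  rw [hb, zero_smul, add_zero] at hab
  exact (smul_eq_zero.1 hab).resolve_right hv

theorem Dt.exists_kd [Finite F] [FiniteDimensional F V] (h : Dt B ε δ s d ν) (hn : finrank F V = 4) :
    ∃ (f0 f1 : F) (Φ : (F × F × F × F) ≃ₗ[F] V), Kd B ε δ s d ν f0 f1 Φ := by
  obtain ⟨f0, f1, ff, hf⟩ := h.exists_f
  have hν : ν ≠ 0 := by rintro rfl; exact h.ns IsSquare.zero
  obtain ⟨s1, s2, s3⟩ := id h.sx
  let φ : Module.End F V := f0 • 1 + f1 • s
  have hφ : ∀ x, φ x = f0 • x + f1 • s x := fun x => rfl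
  have φφ : ∀ x, φ (φ x) = d • x := by
    intro x
    rw [hφ, hφ, map_add, map_smul, map_smul, s3, ← hf]
    have : f0 • (f0 • x + f1 • s x) + f1 • (f0 • s x + f1 • ν • x) =
        (f0 * f0 + ν * (f1 * f1)) • x + (2 * (f0 * f1)) • s x := by module
    rw [this, ff, mul_zero, zero_smul, add_zero]
  have φB : ∀ x y, B (φ x) y = B x (φ y) := by
    intro x y
    rw [hφ, hφ, map_add, map_smul, map_smul, map_add, LinearMap.add_apply, map_smul, map_smul, LinearMap.smul_apply,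
      LinearMap.smul_apply, s2]
  have φδ : ∀ x, φ (δ x) = δ (φ x) := by
    intro x
    rw [hφ, hφ, map_add, map_smul, map_smul, s1]
  have φs : ∀ x, φ (s x) = s (φ x) := by
    intro x
    rw [hφ, hφ, map_add, map_smul, map_smul]
  -- the isotropic subspaces
  have iso : ∀ η : F, η * η = 1 → ∀ x y, δ x = η • φ x → δ y = η • φ y → B x y = 0 := by
    intro η hη x y hx hy
    have h1 : ∀ x y, δ x = η • φ x → δ y = η • φ y → B (φ x) y = 0 := by
      intro x y hx hy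
      apply eq_zero_of_neg h.two
      have e1 : B (δ x) y = - B x (δ y) := h.skew x y
      rw [hx, hy, map_smul, LinearMap.smul_apply, map_smul, ← φB, smul_eq_mul] at e1
      linear_combination η * e1 + (- B (φ x) y - B (φ x) y) * hη
    have h2 : δ (φ x) = η • φ (φ x) := by rw [← φδ, hx, map_smul]
    have h3 := h1 (φ x) y h2 hy
    rw [φφ, map_smul, LinearMap.smul_apply, smul_eq_mul] at h3
    exact (mul_eq_zero.1 h3).resolve_left h.d0
  have hd := h.d0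
  have h2 := h.two
  -- the projections
  have pr1 : ∀ x, δ (φ x + δ x) = (1 : F) • φ (φ x + δ x) := by
    intro x
    rw [map_add, map_add, h.dd, φφ, φδ, one_smul, add_comm]
  have pr2 : ∀ x, δ (φ x - δ x) = (-1 : F) • φ (φ x - δ x) := by
    intro x
    rw [map_sub, map_sub, h.dd, φφ, φδ]
    module
  have hsum : ∀ x, x = (2 * d)⁻¹ • (φ (φ x + δ x) + φ (φ x - δ x)) := by
    intro x
    rw [← map_add, add_add_sub_cancel, map_add, φφ, ← two_smul F (d • x), smul_smul, smul_smul, mul_assoc,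
      inv_mul_cancel₀ (mul_ne_zero h2 hd), one_smul]
  have stab : ∀ (η : F) (x : V), δ x = η • φ x → δ (φ x) = η • φ (φ x) := by
    intro η x hx
    rw [← φδ, hx, map_smul]
  have stabs : ∀ (η : F) (x : V), δ x = η • φ x → δ (s x) = η • φ (s x) := by
    intro η x hx
    rw [← s1, hx, map_smul, φs]
  -- the first vector
  obtain ⟨v, hv, hv0⟩ : ∃ v, δ v = (1 : F) • φ v ∧ v ≠ 0 := by
    by_contra hcon
    push Not at hcon
    have h3 : ∀ x, φ x + δ x = 0 := fun x => hcon _ (pr1 x)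
    have h4 : ∀ x, δ x = (-1 : F) • φ x := by
      intro x
      rw [neg_smul, one_smul]
      exact (neg_eq_of_add_eq_zero_right (h3 x)).symm
    have : Nontrivial V := Module.nontrivial_of_finrank_pos (R := F) (by omega)
    obtain ⟨x, hx⟩ := _root_.exists_ne (0 : V)
    exact hx (h.nd x fun y => iso (-1) (by norm_num) x y (h4 x) (h4 y))
  -- the second vector
  obtain ⟨y, hy1, hy2⟩ : ∃ y, B v y = 1 ∧ B (s v) y = 0 := by
    have hsur : Function.Surjective (LinearMap.prod (B v) (B (s v)) : V →ₗ[F] F × F) := by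
      rw [← LinearMap.range_eq_top]
      by_contra hne
      obtain ⟨ℓ, hℓ0, hℓ⟩ := Submodule.exists_le_ker_of_lt_top _ (lt_top_iff_ne_top.2 hne)
      have e1 : ∀ z : F × F, ℓ z = ℓ (1, 0) * z.1 + ℓ (0, 1) * z.2 := by
        intro z
        have : z = z.1 • ((1 : F), (0 : F)) + z.2 • ((0 : F), (1 : F)) := by ext <;> simp
        rw [this, map_add, map_smul, map_smul]
        simp [mul_comm]
      have e2 : ℓ (1, 0) • v + ℓ (0, 1) • s v = 0 := by
        apply h.nd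
        intro y
        rw [map_add, map_smul, map_smul, LinearMap.add_apply, LinearMap.smul_apply, LinearMap.smul_apply]
        have := LinearMap.mem_ker.1 (hℓ ⟨y, rfl⟩)
        rw [e1] at this
        exact this
      obtain ⟨e3, e4⟩ := h.indep hv0 e2
      apply hℓ0
      ext <;> simp [e3, e4]
    obtain ⟨y, hy⟩ := hsur (1, 0)
    exact ⟨y, congrArg Prod.fst hy, congrArg Prod.snd hy⟩
  let u : V := (2 * d)⁻¹ • φ (φ y - δ y)
  have hu : δ u = (-1 : F) • φ u := by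
    simp only [u, map_smul]
    rw [stab _ _ (pr2 y), smul_comm]
  have huB : ∀ x, δ x = (1 : F) • φ x → B x u = B x y := by
    intro x hx
    have e1 := hsum y
    rw [smul_add] at e1
    have e2 : B x ((2 * d)⁻¹ • φ (φ y + δ y)) = 0 := by
      rw [map_smul, iso 1 (by norm_num) x _ hx (stab _ _ (pr1 y)), smul_zero]
    conv_rhs => rw [e1]
    rw [map_add, e2, zero_add]
  have u1 : B v u = 1 := by rw [huB v hv, hy1]
  have u2 : B (s v) u = 0 := by rw [huB _ (stabs _ _ hv), hy2]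
  have u3 : B v (s u) = 0 := by rw [← s2, u2]
  have u4 : B (s v) (s u) = ν := by rw [s2, s3, map_smul, u1, smul_eq_mul, mul_one]
  have w1 : B u v = ε := by rw [h.symm, u1, mul_one]
  have w2 : B u (s v) = 0 := by rw [h.symm, u2, mul_zero]
  have w3 : B (s u) v = 0 := by rw [h.symm, u3, mul_zero]
  have w4 : B (s u) (s v) = ε * ν := by rw [h.symm, u4]
  have z1 : B v v = 0 := iso 1 (by norm_num) _ _ hv hv
  have z2 : B v (s v) = 0 := iso 1 (by norm_num) _ _ hv (stabs _ _ hv)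
  have z3 : B (s v) v = 0 := iso 1 (by norm_num) _ _ (stabs _ _ hv) hv
  have z4 : B (s v) (s v) = 0 := iso 1 (by norm_num) _ _ (stabs _ _ hv) (stabs _ _ hv)
  have y1 : B u u = 0 := iso (-1) (by norm_num) _ _ hu hu
  have y2 : B u (s u) = 0 := iso (-1) (by norm_num) _ _ hu (stabs _ _ hu)
  have y3 : B (s u) u = 0 := iso (-1) (by norm_num) _ _ (stabs _ _ hu) hu
  have y4 : B (s u) (s u) = 0 := iso (-1) (by norm_num) _ _ (stabs _ _ hu) (stabs _ _ hu)
  have key : ∀ x y : F × F × F × F, B (cmb v (s v) u (s u) x) (cmb v (s v) u (s u) y) =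
      x.1 * y.2.2.1 + ν * (x.2.1 * y.2.2.2) + ε * (x.2.2.1 * y.1 + ν * (x.2.2.2 * y.2.1)) := by
    intro x y
    simp only [cmb_apply, map_add, map_smul, LinearMap.add_apply, LinearMap.smul_apply, smul_eq_mul, u1, u2, u3, u4, w1,
      w2, w3, w4, z1, z2, z3, z4, y1, y2, y3, y4]
    ring
  obtain ⟨Φ, hΦ⟩ := exists_equiv hn v (s v) u (s u) (by
    intro x hx
    have h1 := key x (0, 0, 1, 0)
    have h2 := key x (0, 0, 0, 1)
    have h3 := key x (1, 0, 0, 0)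
    have h4 := key x (0, 1, 0, 0)
    have hε : ε ≠ 0 := by
      rintro rfl
      have := h.ee
      simp at this
    simp only [hx, map_zero, LinearMap.zero_apply, mul_one, mul_zero, add_zero, zero_add] at h1 h2 h3 h4
    have a2 : x.2.1 = 0 := (mul_eq_zero.1 h2.symm).resolve_left hν
    have a3 : x.2.2.1 = 0 := (mul_eq_zero.1 h3.symm).resolve_left hε
    have a4 : x.2.2.2 = 0 := (mul_eq_zero.1 ((mul_eq_zero.1 h4.symm).resolve_left hε)).resolve_left hν
    exact Prod.ext h1.symm (Prod.ext a2 (Prod.ext a3 a4)))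
  have hΦ' : ∀ x, Φ x = cmb v (s v) u (s u) x := hΦ
  refine ⟨f0, f1, Φ, h.two, h.ee, ff, hf, h.d0, hν, fun x y => by rw [hΦ', hΦ', key], fun x => ?_, fun x => ?_⟩
  · rw [hΦ, hΦ]
    simp only [map_add, map_smul, s3, smul_smul]
    rw [mul_comm ν x.2.1, mul_comm ν x.2.2.2]
    abel
  · rw [hΦ, hΦ]
    have b1 := stabs _ _ hv
    have b2 := stabs _ _ hu
    simp only [map_add, map_smul, hv, hu, b1, b2, hφ, s3, one_smul]
    module

end

/-! ### The groups -/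

/-- isometries commuting with `δ` and `s` -/
def AA (B : V →ₗ[F] V →ₗ[F] F) (δ s : Module.End F V) : Subgroup (V ≃ₗ[F] V) where
  carrier := {g | g ∈ Isom B ∧ (∀ x, g (s x) = s (g x)) ∧ ∀ x, g (δ x) = δ (g x)}
  mul_mem' := fun {a b} ha hb => ⟨mul_mem ha.1 hb.1, fun x => by
    show a (b (s x)) = s (a (b x))
    rw [hb.2.1, ha.2.1], fun x => by
    show a (b (δ x)) = δ (a (b x))
    rw [hb.2.2, ha.2.2]⟩
  one_mem' := ⟨one_mem _, fun _ => rfl, fun _ => rfl⟩
  inv_mem' := fun {a} ha => ⟨inv_mem ha.1, fun x => by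
    show a.symm (s x) = s (a.symm x)
    apply a.injective
    rw [ha.2.1, a.apply_symm_apply, a.apply_symm_apply], fun x => by
    show a.symm (δ x) = δ (a.symm x)
    apply a.injective
    rw [ha.2.2, a.apply_symm_apply, a.apply_symm_apply]⟩

/-- isometries which centralise or negate `δ` and `s` -/
def YY (B : V →ₗ[F] V →ₗ[F] F) (δ s : Module.End F V) : Subgroup (V ≃ₗ[F] V) where
  carrier := {g | g ∈ Isom B ∧ ((∀ x, g (s x) = s (g x)) ∨ ∀ x, g (s x) = - s (g x)) ∧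
    ((∀ x, g (δ x) = δ (g x)) ∨ ∀ x, g (δ x) = - δ (g x))}
  mul_mem' := by
    rintro a b ⟨ha, ha1, ha2⟩ ⟨hb, hb1, hb2⟩
    refine ⟨mul_mem ha hb, ?_, ?_⟩
    · have e : ∀ x, (a * b) x = a (b x) := fun _ => rfl
      rcases ha1 with h1 | h1 <;> rcases hb1 with h2 | h2
      · exact Or.inl fun x => by rw [e, e, h2, h1]
      · exact Or.inr fun x => by rw [e, e, h2, map_neg, h1]
      · exact Or.inr fun x => by rw [e, e, h2, h1]
      · exact Or.inl fun x => by rw [e, e, h2, map_neg, h1, neg_neg]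
    · have e : ∀ x, (a * b) x = a (b x) := fun _ => rfl
      rcases ha2 with h1 | h1 <;> rcases hb2 with h2 | h2
      · exact Or.inl fun x => by rw [e, e, h2, h1]
      · exact Or.inr fun x => by rw [e, e, h2, map_neg, h1]
      · exact Or.inr fun x => by rw [e, e, h2, h1]
      · exact Or.inl fun x => by rw [e, e, h2, map_neg, h1, neg_neg]
  one_mem' := ⟨one_mem _, Or.inl fun _ => rfl, Or.inl fun _ => rfl⟩
  inv_mem' := by
    rintro a ⟨ha, ha1, ha2⟩
    refine ⟨inv_mem ha, ?_, ?_⟩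
    · have e : ∀ x, a⁻¹ x = a.symm x := fun _ => rfl
      rcases ha1 with h1 | h1
      · exact Or.inl fun x => by
          rw [e, e]; apply a.injective; rw [h1, a.apply_symm_apply, a.apply_symm_apply]
      · exact Or.inr fun x => by
          rw [e, e]; apply a.injective; rw [map_neg, h1, a.apply_symm_apply, a.apply_symm_apply, neg_neg]
    · have e : ∀ x, a⁻¹ x = a.symm x := fun _ => rfl
      rcases ha2 with h1 | h1
      · exact Or.inl fun x => by
          rw [e, e]; apply a.injective; rw [h1, a.apply_symm_apply, a.apply_symm_apply]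
      · exact Or.inr fun x => by
          rw [e, e]; apply a.injective; rw [map_neg, h1, a.apply_symm_apply, a.apply_symm_apply, neg_neg]

theorem mem_AA {B : V →ₗ[F] V →ₗ[F] F} {δ s : Module.End F V} {g : V ≃ₗ[F] V} : g ∈ AA B δ s ↔
    g ∈ Isom B ∧ (∀ x, g (s x) = s (g x)) ∧ ∀ x, g (δ x) = δ (g x) := Iff.rfl

theorem mem_YY {B : V →ₗ[F] V →ₗ[F] F} {δ s : Module.End F V} {g : V ≃ₗ[F] V} : g ∈ YY B δ s ↔
    g ∈ Isom B ∧ ((∀ x, g (s x) = s (g x)) ∨ ∀ x, g (s x) = - s (g x)) ∧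
      ((∀ x, g (δ x) = δ (g x)) ∨ ∀ x, g (δ x) = - δ (g x)) := Iff.rfl

theorem AA_le (B : V →ₗ[F] V →ₗ[F] F) (δ s : Module.End F V) : AA B δ s ≤ YY B δ s :=
  fun _ h => ⟨h.1, Or.inl h.2.1, Or.inl h.2.2⟩

/-- the swap -/
def mt (ε : F) (ee : ε * ε = 1) : (F × F × F × F) ≃ₗ[F] (F × F × F × F) where
  toFun x := (ε * x.2.2.1, ε * x.2.2.2, x.1, x.2.1)
  invFun x := (x.2.2.1, x.2.2.2, ε * x.1, ε * x.2.1)
  map_add' x y := by ext <;> simp [mul_add]
  map_smul' c x := by ext <;> simp [mul_left_comm]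
  left_inv x := by ext <;> simp [← mul_assoc, ee]
  right_inv x := by ext <;> simp [← mul_assoc, ee]

/-- the Frobenius map -/
def mw : (F × F × F × F) ≃ₗ[F] (F × F × F × F) where
  toFun x := (x.1, -x.2.1, x.2.2.1, -x.2.2.2)
  invFun x := (x.1, -x.2.1, x.2.2.1, -x.2.2.2)
  map_add' x y := by ext <;> simp [add_comm]
  map_smul' c x := by ext <;> simp
  left_inv x := by ext <;> simp
  right_inv x := by ext <;> simp

/-- transport -/
def tr (Φ : (F × F × F × F) ≃ₗ[F] V) (g : (F × F × F × F) ≃ₗ[F] (F × F × F × F)) : V ≃ₗ[F] V :=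
  Φ.symm.trans (g.trans Φ)

theorem tr_apply (Φ : (F × F × F × F) ≃ₗ[F] V) (g : (F × F × F × F) ≃ₗ[F] (F × F × F × F)) (x : F × F × F × F) :
    tr Φ g (Φ x) = Φ (g x) := by simp [tr]

section kd

variable {B : V →ₗ[F] V →ₗ[F] F} {ε : F} {δ s : Module.End F V} {d ν f0 f1 : F} {Φ : (F × F × F × F) ≃ₗ[F] V}

theorem Kd.t_isom (h : Kd B ε δ s d ν f0 f1 Φ) : tr Φ (mt ε h.ee) ∈ Isom B := by
  intro x y
  obtain ⟨x, rfl⟩ := Φ.surjective x
  obtain ⟨y, rfl⟩ := Φ.surjective y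
  rw [tr_apply, tr_apply, h.B, h.B]
  show ε * x.2.2.1 * y.1 + ν * (ε * x.2.2.2 * y.2.1) + ε * (x.1 * (ε * y.2.2.1) + ν * (x.2.1 * (ε * y.2.2.2))) = _
  linear_combination (x.1 * y.2.2.1 + ν * (x.2.1 * y.2.2.2)) * h.ee

theorem Kd.w_isom (h : Kd B ε δ s d ν f0 f1 Φ) : tr Φ mw ∈ Isom B := by
  intro x y
  obtain ⟨x, rfl⟩ := Φ.surjective x
  obtain ⟨y, rfl⟩ := Φ.surjective y
  rw [tr_apply, tr_apply, h.B, h.B]
  show x.1 * y.2.2.1 + ν * (-x.2.1 * -y.2.2.2) + ε * (x.2.2.1 * y.1 + ν * (-x.2.2.2 * -y.2.1)) = _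
  ring

theorem Kd.t_s (h : Kd B ε δ s d ν f0 f1 Φ) (x : V) : tr Φ (mt ε h.ee) (s x) = s (tr Φ (mt ε h.ee) x) := by
  obtain ⟨x, rfl⟩ := Φ.surjective x
  rw [h.s, tr_apply, tr_apply, h.s]
  congr 1
  ext <;> simp [mt, mul_left_comm]

theorem Kd.t_δ (h : Kd B ε δ s d ν f0 f1 Φ) (x : V) : tr Φ (mt ε h.ee) (δ x) = - δ (tr Φ (mt ε h.ee) x) := by
  obtain ⟨x, rfl⟩ := Φ.surjective x
  rw [h.δ, tr_apply, tr_apply, h.δ, ← map_neg]
  congr 1
  ext <;> simp [mt] <;> ring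

theorem Kd.w_s (h : Kd B ε δ s d ν f0 f1 Φ) (x : V) : tr Φ mw (s x) = - s (tr Φ mw x) := by
  obtain ⟨x, rfl⟩ := Φ.surjective x
  rw [h.s, tr_apply, tr_apply, h.s, ← map_neg]
  congr 1
  ext <;> simp [mw]

theorem Kd.w_δ (h : Kd B ε δ s d ν f0 f1 Φ) : (∀ x, tr Φ mw (δ x) = δ (tr Φ mw x)) ∨
    ∀ x, tr Φ mw (δ x) = - δ (tr Φ mw x) := by
  rcases mul_eq_zero.1 h.ff with h0 | h0
  · right
    intro x
    obtain ⟨x, rfl⟩ := Φ.surjective x
    rw [h.δ, tr_apply, tr_apply, h.δ, ← map_neg]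
    congr 1
    ext <;> simp [mw, h0]
  · left
    intro x
    obtain ⟨x, rfl⟩ := Φ.surjective x
    rw [h.δ, tr_apply, tr_apply, h.δ]
    congr 1
    ext <;> simp [mw, h0]

theorem Kd.w_w (_ : Kd B ε δ s d ν f0 f1 Φ) : tr Φ mw * tr Φ mw = 1 := by
  ext x
  obtain ⟨x, rfl⟩ := Φ.surjective x
  show tr Φ mw (tr Φ mw (Φ x)) = Φ x
  rw [tr_apply, tr_apply]
  congr 1
  ext <;> simp [mw]

theorem Kd.t_t (h : Kd B ε δ s d ν f0 f1 Φ) (x : V) : tr Φ (mt ε h.ee) (tr Φ (mt ε h.ee) x) = ε • x := by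
  obtain ⟨x, rfl⟩ := Φ.surjective x
  rw [tr_apply, tr_apply, ← map_smul]
  congr 1

theorem Kd.t_w (h : Kd B ε δ s d ν f0 f1 Φ) : tr Φ (mt ε h.ee) * tr Φ mw = tr Φ mw * tr Φ (mt ε h.ee) := by
  ext x
  obtain ⟨x, rfl⟩ := Φ.surjective x
  show tr Φ (mt ε h.ee) (tr Φ mw (Φ x)) = tr Φ mw (tr Φ (mt ε h.ee) (Φ x))
  rw [tr_apply, tr_apply, tr_apply, tr_apply]
  congr 1
  ext <;> simp [mw, mt]

/-- the elements of `A` in coordinates -/
theorem Kd.A_coord (h : Kd B ε δ s d ν f0 f1 Φ) {a : V ≃ₗ[F] V} (ha : a ∈ AA B δ s) :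
    ∃ p r p' r' : F, p * p' + ν * (r * r') = 1 ∧ p * r' + r * p' = 0 ∧
      ∀ x, a (Φ x) = Φ (p * x.1 + ν * r * x.2.1, r * x.1 + p * x.2.1, p' * x.2.2.1 + ν * r' * x.2.2.2,
        r' * x.2.2.1 + p' * x.2.2.2) := by
  obtain ⟨a1, a2, a3⟩ := ha
  obtain ⟨y, hy⟩ := Φ.surjective (a (Φ (1, 0, 0, 0)))
  obtain ⟨z, hz⟩ := Φ.surjective (a (Φ (0, 0, 1, 0)))
  have h2 := h.two
  -- `δ (Φ (1, 0, 0, 0)) = (f0 + f1 s) (Φ (1, 0, 0, 0))`
  have e1 : δ (Φ (1, 0, 0, 0)) = f0 • Φ (1, 0, 0, 0) + f1 • s (Φ (1, 0, 0, 0)) := by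
    rw [h.δ, h.s, ← map_smul, ← map_smul, ← map_add]
    congr 1
    ext <;> simp
  have e2 : δ (Φ (0, 0, 1, 0)) = -(f0 • Φ (0, 0, 1, 0) + f1 • s (Φ (0, 0, 1, 0))) := by
    rw [h.δ, h.s, ← map_smul, ← map_smul, ← map_add, ← map_neg]
    congr 1
    ext <;> simp
  have e3 := a3 (Φ (1, 0, 0, 0))
  rw [e1, map_add, map_smul, map_smul, a2, ← hy, h.δ, h.s, ← map_smul, ← map_smul, ← map_add] at e3
  have e4 := a3 (Φ (0, 0, 1, 0))
  rw [e2, map_neg, map_add, map_smul, map_smul, a2, ← hz, h.δ, h.s, ← map_smul, ← map_smul, ← map_add, ← map_neg] at e4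
  have e5 := Φ.injective e3
  have e6 := Φ.injective e4
  have hν := h.ν0
  have hfd := h.f
  have hd0 := h.d0
  have kill : ∀ u v : F, f0 * u + ν * f1 * v = 0 → f0 * v + f1 * u = 0 → u = 0 ∧ v = 0 := by
    intro u v k1 k2
    rcases mul_eq_zero.1 h.ff with h0 | h0
    · have hf1 : f1 ≠ 0 := by
        rintro rfl
        apply hd0
        rw [← hfd, h0]
        ring
      rw [h0, zero_mul, zero_add] at k1 k2
      exact ⟨(mul_eq_zero.1 k2).resolve_left hf1, (mul_eq_zero.1 k1).resolve_left (mul_ne_zero hν hf1)⟩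
    · have hf0 : f0 ≠ 0 := by
        rintro rfl
        apply hd0
        rw [← hfd, h0]
        ring
      rw [h0, mul_zero, zero_mul, add_zero] at k1
      rw [h0, zero_mul, add_zero] at k2
      exact ⟨(mul_eq_zero.1 k1).resolve_left hf0, (mul_eq_zero.1 k2).resolve_left hf0⟩
  have y34 := kill y.2.2.1 y.2.2.2 (by
    have := congrArg (fun w : F × F × F × F => w.2.2.1) e5
    simp only [Prod.fst_add, Prod.snd_add, Prod.smul_fst, Prod.smul_snd, smul_eq_mul] at this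
    have k : 2 * (f0 * y.2.2.1 + ν * f1 * y.2.2.2) = 0 := by linear_combination this
    exact (mul_eq_zero.1 k).resolve_left h2) (by
    have := congrArg (fun w : F × F × F × F => w.2.2.2) e5
    simp only [Prod.snd_add, Prod.smul_snd, smul_eq_mul] at this
    have k : 2 * (f0 * y.2.2.2 + f1 * y.2.2.1) = 0 := by linear_combination this
    exact (mul_eq_zero.1 k).resolve_left h2)
  have z12 := kill z.1 z.2.1 (by
    have := congrArg (fun w : F × F × F × F => w.1) e6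
    simp only [Prod.fst_add, Prod.fst_neg, Prod.smul_fst, smul_eq_mul] at this
    have k : 2 * (f0 * z.1 + ν * f1 * z.2.1) = 0 := by linear_combination -this
    exact (mul_eq_zero.1 k).resolve_left h2) (by
    have := congrArg (fun w : F × F × F × F => w.2.1) e6
    simp only [Prod.fst_add, Prod.snd_add, Prod.fst_neg, Prod.snd_neg, Prod.smul_fst, Prod.smul_snd, smul_eq_mul] at this
    have k : 2 * (f0 * z.2.1 + f1 * z.1) = 0 := by linear_combination -this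
    exact (mul_eq_zero.1 k).resolve_left h2)
  have hy' : a (Φ (1, 0, 0, 0)) = Φ (y.1, y.2.1, 0, 0) := by
    rw [← hy]
    congr 1
    ext <;> simp [y34]
  have hz' : a (Φ (0, 0, 1, 0)) = Φ (0, 0, z.2.2.1, z.2.2.2) := by
    rw [← hz]
    congr 1
    ext <;> simp [z12]
  refine ⟨y.1, y.2.1, z.2.2.1, z.2.2.2, ?_, ?_, ?_⟩
  · have := a1 (Φ (1, 0, 0, 0)) (Φ (0, 0, 1, 0))
    rw [hy', hz', h.B, h.B] at this
    simp only [mul_zero, mul_one, add_zero] at this
    exact this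
  · have := a1 (Φ (1, 0, 0, 0)) (s (Φ (0, 0, 1, 0)))
    rw [a2, hy', hz', h.s, h.s, h.B, h.B] at this
    simp only [mul_zero, mul_one, add_zero] at this
    have k : ν * (y.1 * z.2.2.2 + y.2.1 * z.2.2.1) = 0 := by linear_combination this
    exact (mul_eq_zero.1 k).resolve_left hν
  · intro x
    have e : Φ x = x.1 • Φ (1, 0, 0, 0) + x.2.1 • s (Φ (1, 0, 0, 0)) + x.2.2.1 • Φ (0, 0, 1, 0) +
        x.2.2.2 • s (Φ (0, 0, 1, 0)) := by
      rw [h.s, h.s, ← map_smul, ← map_smul, ← map_smul, ← map_smul, ← map_add, ← map_add, ← map_add]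
      congr 1
      ext <;> simp
    rw [e, map_add, map_add, map_add, map_smul, map_smul, map_smul, map_smul, a2, a2, hy', hz', h.s, h.s,
      ← map_smul, ← map_smul, ← map_smul, ← map_smul, ← map_add, ← map_add, ← map_add]
    congr 1
    ext <;> simp <;> ring

/-- `t` inverts `A` -/
theorem Kd.t_inv (h : Kd B ε δ s d ν f0 f1 Φ) {a : V ≃ₗ[F] V} (ha : a ∈ AA B δ s) :
    tr Φ (mt ε h.ee) * a * (tr Φ (mt ε h.ee))⁻¹ = a⁻¹ := by
  obtain ⟨p, r, p', r', e1, e2, e3⟩ := h.A_coord ha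
  have key : a * tr Φ (mt ε h.ee) * a = tr Φ (mt ε h.ee) := by
    ext x
    obtain ⟨x, rfl⟩ := Φ.surjective x
    show a (tr Φ (mt ε h.ee) (a (Φ x))) = tr Φ (mt ε h.ee) (Φ x)
    rw [e3, tr_apply, e3, tr_apply]
    congr 1
    refine Prod.ext ?_ (Prod.ext ?_ (Prod.ext ?_ ?_))
    · show p * (ε * (p' * x.2.2.1 + ν * r' * x.2.2.2)) + ν * r * (ε * (r' * x.2.2.1 + p' * x.2.2.2)) = ε * x.2.2.1
      linear_combination ε * x.2.2.1 * e1 + ε * ν * x.2.2.2 * e2
    · show r * (ε * (p' * x.2.2.1 + ν * r' * x.2.2.2)) + p * (ε * (r' * x.2.2.1 + p' * x.2.2.2)) = ε * x.2.2.2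
      linear_combination ε * x.2.2.2 * e1 + ε * x.2.2.1 * e2
    · show p' * (p * x.1 + ν * r * x.2.1) + ν * r' * (r * x.1 + p * x.2.1) = x.1
      linear_combination x.1 * e1 + ν * x.2.1 * e2
    · show r' * (p * x.1 + ν * r * x.2.1) + p' * (r * x.1 + p * x.2.1) = x.2.1
      linear_combination x.2.1 * e1 + x.1 * e2
  have k2 : tr Φ (mt ε h.ee) * a = a⁻¹ * tr Φ (mt ε h.ee) := by
    rw [eq_inv_mul_iff_mul_eq, ← mul_assoc, key]
  rw [k2, mul_inv_cancel_right]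

end kd

end Cfsg.Agent.H194.FR
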